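import Cfsg.Agent.H215.Bad

/-!
# Actions by conjugation on abelian sections; the quotient by the kernel
-/

set_option autoImplicit false
set_option linter.unusedSectionVars false
set_option linter.unusedVariables false

namespace Cfsg.Agent.H215.Act

open Cfsg.Agent.H263.FF.Basic

/-! ### the quotient by the kernel -/

section ker

variable (G : Type*) [Group G] (F : Type*) [AddCommGroup F] [DistribMulAction G F]

/-- the kernel of the action -/
def kerF : Subgroup G where
  carrier := {g | ∀ v : F, g • v = v}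
  one_mem' := fun v => one_smul _ v
  mul_mem' := fun {a b} ha hb v => by rw [mul_smul, hb, ha]
  inv_mem' := fun {a} ha v => by rw [inv_smul_eq_iff, ha]

instance : (kerF G F).Normal := ⟨fun n hn g v => by rw [mul_smul, mul_smul, hn, smul_inv_smul]⟩

instance : DistribMulAction (G ⧸ kerF G F) F where
  smul q v := Quotient.liftOn' q (fun g => g • v) (by
    intro a b hab
    rw [QuotientGroup.leftRel_apply] at hab
    have := hab v
    rw [mul_smul, inv_smul_eq_iff] at this
    exact this.symm)
  one_smul v := one_smul G v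
  mul_smul x y v := by
    induction x using QuotientGroup.induction_on with
    | H a =>
      induction y using QuotientGroup.induction_on with
      | H b => exact mul_smul a b v
  smul_zero x := by
    induction x using QuotientGroup.induction_on with
    | H a => exact smul_zero a
  smul_add x v w := by
    induction x using QuotientGroup.induction_on with
    | H a => exact smul_add a v w

/-- the projection -/
def pr : G →* G ⧸ kerF G F := QuotientGroup.mk' (kerF G F)

variable {G F}

theorem pr_smul (g : G) (v : F) : pr G F g • v = g • v := rfl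

theorem pr_surj : Function.Surjective (pr G F) := QuotientGroup.mk'_surjective _

theorem pr_eq_one {g : G} : pr G F g = 1 ↔ ∀ v : F, g • v = v := QuotientGroup.eq_one_iff g

theorem pr_faithful (x : G ⧸ kerF G F) (h : ∀ v : F, x • v = v) : x = 1 := by
  induction x using QuotientGroup.induction_on with
  | H a => exact pr_eq_one.2 h

theorem fx_map (A : Subgroup G) : fx F (A.map (pr G F)) = fx F A := by
  ext v
  constructor
  · intro h a ha
    exact h _ ⟨a, ha, rfl⟩
  · rintro h _ ⟨a, ha, rfl⟩
    exact h a ha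

end ker

/-! ### the conjugation module -/

section conj

variable {G G' : Type*} [Group G] [Group G']

/-- abelian and invariant -/
def Inv (f : G →* G') (V : Subgroup G') : Prop :=
  (∀ a ∈ V, ∀ b ∈ V, a * b = b * a) ∧ ∀ g : G, ∀ v ∈ V, f g * v * (f g)⁻¹ ∈ V

/-- the abelian group `V` as a module for `G` acting through `f` by conjugation -/
def Md (f : G →* G') (V : Subgroup G') (_ : Inv f V) : Type _ := Additive ↥V

variable {f : G →* G'} {V : Subgroup G'} {h : Inv f V}

instance : AddCommGroup (Md f V h) :=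
  { (inferInstance : AddGroup (Additive ↥V)) with
    add_comm := fun a b => congrArg Additive.ofMul (Subtype.ext (h.1 (Additive.toMul a : ↥V) (Additive.toMul a).2
      (Additive.toMul b : ↥V) (Additive.toMul b).2)) }

instance [Finite G'] : Finite (Md f V h) := inferInstanceAs (Finite ↥V)

/-- the underlying element -/
def Md.val (v : Md f V h) : G' := ((Additive.toMul v : ↥V) : G')

theorem Md.val_mem (v : Md f V h) : v.val ∈ V := (Additive.toMul v).2

/-- the element of the module -/
def Md.mk (f : G →* G') (h : Inv f V) {g : G'} (hg : g ∈ V) : Md f V h := Additive.ofMul ⟨g, hg⟩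

theorem Md.val_mk {g : G'} (hg : g ∈ V) : (Md.mk f h hg).val = g := rfl

theorem Md.val_inj {v w : Md f V h} (e : v.val = w.val) : v = w :=
  congrArg Additive.ofMul (Subtype.ext e : (Additive.toMul v : ↥V) = Additive.toMul w)

theorem Md.val_add (v w : Md f V h) : (v + w).val = v.val * w.val := rfl
theorem Md.val_zero : (0 : Md f V h).val = 1 := rfl
theorem Md.val_neg (v : Md f V h) : (-v).val = (v.val)⁻¹ := rfl
theorem Md.val_sub (v w : Md f V h) : (v - w).val = v.val * (w.val)⁻¹ := by
  rw [sub_eq_add_neg, Md.val_add, Md.val_neg]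

theorem Md.val_nsmul (n : ℕ) (v : Md f V h) : (n • v).val = v.val ^ n := by
  induction n with
  | zero => rw [zero_smul, pow_zero]; rfl
  | succ n ih => rw [succ_nsmul, Md.val_add, ih, pow_succ]

instance : DistribMulAction G (Md f V h) where
  smul x v := Md.mk f h (h.2 x v.val v.val_mem)
  one_smul v := Md.val_inj (by
    show f 1 * v.val * (f 1)⁻¹ = v.val
    simp)
  mul_smul x y v := Md.val_inj (by
    show f (x * y) * v.val * (f (x * y))⁻¹ = f x * (f y * v.val * (f y)⁻¹) * (f x)⁻¹
    rw [map_mul]; group)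
  smul_zero x := Md.val_inj (by
    show f x * 1 * (f x)⁻¹ = 1
    simp)
  smul_add x v w := Md.val_inj (by
    show f x * (v.val * w.val) * (f x)⁻¹ = (f x * v.val * (f x)⁻¹) * (f x * w.val * (f x)⁻¹)
    group)

theorem Md.val_smul (x : G) (v : Md f V h) : (x • v).val = f x * v.val * (f x)⁻¹ := rfl

theorem Md.smul_eq_iff (x : G) (v : Md f V h) : x • v = v ↔ f x * v.val = v.val * f x := by
  constructor
  · intro e
    have h1 := congrArg Md.val e
    rw [Md.val_smul, mul_inv_eq_iff_eq_mul] at h1
    exact h1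
  · intro e
    apply Md.val_inj
    rw [Md.val_smul, mul_inv_eq_iff_eq_mul]
    exact e

theorem Md.ext_zero {v : Md f V h} : v = 0 ↔ v.val = 1 :=
  ⟨fun e => by rw [e]; rfl, fun e => Md.val_inj e⟩

end conj

/-! ### irreducible modules with an `M`-invariant functional for `G` -/

open Cfsg.Agent.H215.Bad in
theorem bad_G {G : Type*} [Group G] [Finite G] {p : ℕ} [hp : Fact p.Prime] (hp2 : p ≠ 2) {S M Q : Subgroup G}
    (hS : IsPGroup p S) [hQn : Q.Normal] (hQS : Q ≤ S) (hSQ : ¬ S ≤ Q) (hSM : S ≤ M) (hM : M ≠ ⊤)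
    (hmax : ∀ H : Subgroup G, S ≤ H → H ≠ ⊤ → H ≤ M)
    (cov : ∀ g₁, g₁ ∉ M → ∀ x, x ∉ M → ∃ s ∈ S, ∃ m ∈ M, x = s * g₁ * m)
    (free : ∀ g₁, g₁ ∉ M → ∀ s ∈ S, g₁⁻¹ * s * g₁ ∈ M → s ∈ Q)
    {F : Type*} [AddCommGroup F] [Finite F] [DistribMulAction G F] (pF : ∀ v : F, p • v = 0)
    (irr : ∀ N : AddSubgroup F, (∀ x : G, ∀ v ∈ N, x • v ∈ N) → N = ⊥ ∨ N = ⊤)
    (nt : ∃ (x : G) (v : F), x • v ≠ v)
    (bad : ∃ B : AddSubgroup F, B ≠ ⊤ ∧ ∀ m ∈ M, ∀ v : F, m • v - v ∈ B) :
    (∀ q ∈ Q, ∀ v : F, q • v = v) ∧ Nat.card (fx F S) ≤ p ∧ p ^ 2 < Nat.card F := by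
  have hF : ¬ (⊤ : AddSubgroup F) ≤ ⊥ := by
    intro e
    obtain ⟨x, v, hv⟩ := nt
    have h1 : v = 0 := (AddSubgroup.mem_bot).1 (e (AddSubgroup.mem_top v))
    exact hv (by rw [h1, smul_zero])
  have hfixne : ∀ P : Subgroup G, IsPGroup p P → fx F P ≠ ⊥ := by
    intro P hP e
    obtain ⟨v, -, hv, hv'⟩ := exists_fixed hP pF (H := ⊤) (K := ⊥)
      (fun t _ v hv => by rw [AddSubgroup.mem_bot] at hv ⊢; rw [hv, smul_zero])
      (fun _ _ _ _ => AddSubgroup.mem_top _) bot_le hF
    apply hv
    rw [← e]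
    intro t ht
    have := hv' t ht
    rwa [AddSubgroup.mem_bot, sub_eq_zero] at this
  -- `Q` acts trivially
  have hQ : ∀ q ∈ Q, ∀ v : F, q • v = v := by
    have h1 : fx F Q = ⊤ := by
      refine (irr (fx F Q) fun x v hv q hq => ?_).resolve_left (hfixne Q (hS.to_le hQS))
      have h2 := hv _ (hQn.conj_mem q hq x⁻¹)
      rw [inv_inv, mul_smul, mul_smul, inv_smul_eq_iff] at h2
      exact h2
    intro q hq v
    have : v ∈ fx F Q := by rw [h1]; trivial
    exact this q hq
  refine ⟨hQ, ?_⟩
  -- the kernel lies in `M`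
  have hKM : kerF G F ≤ M := by
    by_contra hcon
    have h1 : kerF G F ⊔ S = ⊤ := by
      by_contra h2
      exact hcon (le_sup_left.trans (hmax _ le_sup_right h2))
    have h2 : fx F S = fx F (⊤ : Subgroup G) := by
      rw [← h1, fx_sup]
      refine (inf_eq_right.2 ?_).symm
      intro v _ k hk
      exact hk v
    have h3 : fx F S = ⊤ := by
      refine (irr (fx F S) fun x v hv => ?_).resolve_left (hfixne S hS)
      rw [h2] at hv
      rw [h2, hv x trivial]; exact hv
    obtain ⟨x, v, hv⟩ := nt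
    apply hv
    have h4 : v ∈ fx F (⊤ : Subgroup G) := by rw [← h2, h3]; trivial
    exact h4 x trivial
  obtain ⟨g₁, hg₁⟩ : ∃ g, g ∉ M := by
    by_contra hcon
    push Not at hcon
    exact hM (by rw [eq_top_iff]; exact fun x _ => hcon x)
  have hπM : ∀ x, pr G F x ∈ M.map (pr G F) → x ∈ M := by
    rintro x ⟨m, hm, e⟩
    have h1 : m⁻¹ * x ∈ kerF G F := by
      have h2 : pr G F (m⁻¹ * x) = 1 := by rw [map_mul, map_inv, e, inv_mul_cancel]
      exact pr_eq_one.1 h2
    have h3 := mul_mem hm (hKM h1)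
    rwa [mul_inv_cancel_left] at h3
  have hyp : Hyp p (S.map (pr G F)) (M.map (pr G F)) (pr G F g₁) F :=
    { pT := hS.map _
      Tne := by
        intro e
        apply hSQ
        intro s hs
        have h1 : S ≤ kerF G F := by
          intro t ht
          have h2 : pr G F t ∈ S.map (pr G F) := ⟨t, ht, rfl⟩
          rw [e, Subgroup.mem_bot] at h2
          exact pr_eq_one.1 h2
        apply free g₁ hg₁ s hs
        have h2 := (inferInstance : (kerF G F).Normal).conj_mem s (h1 hs) g₁⁻¹
        rw [inv_inv] at h2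
        exact hKM h2
      TM := Subgroup.map_mono hSM
      g₁M := fun h1 => hg₁ (hπM _ h1)
      cov := by
        intro x hx
        obtain ⟨x, rfl⟩ := pr_surj x
        have hx' : x ∉ M := fun h1 => hx ⟨x, h1, rfl⟩
        obtain ⟨s, hs, m, hm, rfl⟩ := cov g₁ hg₁ x hx'
        exact ⟨_, ⟨s, hs, rfl⟩, _, ⟨m, hm, rfl⟩, by rw [map_mul, map_mul]⟩
      free := by
        rintro _ ⟨s, hs, rfl⟩ h1
        rw [← map_inv, ← map_mul, ← map_mul] at h1
        exact pr_eq_one.2 (hQ s (free g₁ hg₁ s hs (hπM _ h1)))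
      pF := pF
      irr := by
        intro N hN
        exact irr N fun x v hv => hN (pr G F x) v hv
      nt := by
        obtain ⟨x, v, hv⟩ := nt
        exact ⟨pr G F x, v, hv⟩
      bad := by
        obtain ⟨B, hB, hB'⟩ := bad
        refine ⟨B, hB, ?_⟩
        rintro _ ⟨m, hm, rfl⟩ v
        exact hB' m hm v }
  refine ⟨?_, hyp.card_gt hp2⟩
  have := hyp.card_fx
  rwa [fx_map] at this

end Cfsg.Agent.H215.Act
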