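import Cfsg.Agent.H263.FF.Basic

/-!
# Irreducible modules with an `M`-invariant functional

`T` is a `p`-subgroup acting regularly on the points `≠ M` of `X / M`.  An irreducible nontrivial module `F` with
`[F, M] < F` satisfies `|C_F(T)| ≤ p` and (`p` odd) `|F| > p²`.
-/

set_option autoImplicit false
set_option linter.unusedSectionVars false
set_option linter.unusedVariables false

namespace Cfsg.Agent.H215.Bad

open Cfsg.Agent.H263.FF.Basic

variable {X : Type*} [Group X] [Finite X] {F : Type*} [AddCommGroup F] [Finite F] [DistribMulAction X F]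

/-- The hypotheses. -/
structure Hyp (p : ℕ) [Fact p.Prime] (T M : Subgroup X) (g₁ : X) (F : Type*) [AddCommGroup F] [DistribMulAction X F] :
    Prop where
  pT : IsPGroup p T
  Tne : T ≠ ⊥
  TM : T ≤ M
  g₁M : g₁ ∉ M
  cov : ∀ x, x ∉ M → ∃ t ∈ T, ∃ m ∈ M, x = t * g₁ * m
  free : ∀ t ∈ T, g₁⁻¹ * t * g₁ ∈ M → t = 1
  pF : ∀ v : F, p • v = 0
  irr : ∀ N : AddSubgroup F, (∀ x : X, ∀ v ∈ N, x • v ∈ N) → N = ⊥ ∨ N = ⊤
  nt : ∃ (x : X) (v : F), x • v ≠ v
  bad : ∃ B : AddSubgroup F, B ≠ ⊤ ∧ ∀ m ∈ M, ∀ v : F, m • v - v ∈ B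

variable {p : ℕ} [hp : Fact p.Prime] {T M : Subgroup X} {g₁ : X} (h : Hyp p T M g₁ F)

include h

theorem Hyp.exists_functional : ∃ l : F →+ ZMod p, (∃ v, l v ≠ 0) ∧ ∀ m ∈ M, ∀ v, l (m • v) = l v := by
  obtain ⟨B, hB, hBM⟩ := h.bad
  have inst : Module (ZMod p) F := AddCommGroup.zmodModule h.pF
  have hlt : (AddSubgroup.toZModSubmodule p B : Submodule (ZMod p) F) < ⊤ := by
    rw [lt_top_iff_ne_top]
    intro e
    apply hB
    rw [eq_top_iff]
    intro v _
    have : v ∈ (AddSubgroup.toZModSubmodule p B : Submodule (ZMod p) F) := by rw [e]; trivial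
    exact this
  obtain ⟨f, hf, hle⟩ := Submodule.exists_le_ker_of_lt_top _ hlt
  refine ⟨f.toAddMonoidHom, ?_, ?_⟩
  · by_contra hcon
    push Not at hcon
    exact hf (LinearMap.ext hcon)
  · intro m hm v
    have h1 : m • v - v ∈ LinearMap.ker f := hle (hBM m hm v)
    rw [LinearMap.mem_ker, map_sub, sub_eq_zero] at h1
    exact h1

/-- the function on `X / M` -/
theorem Hyp.sum_zero {l : F →+ ZMod p} (hl : ∀ m ∈ M, ∀ v, l (m • v) = l v) [Fintype T] (v : F) :
    l v + ∑ t : T, l (g₁⁻¹ • ((t : X)⁻¹ • v)) = 0 := by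
  classical
  have _ : Fintype (X ⧸ M) := Fintype.ofFinite _
  -- the function
  let f : F → X ⧸ M → ZMod p := fun v c => Quotient.liftOn' c (fun x => l (x⁻¹ • v)) (by
    intro x y hxy
    rw [QuotientGroup.leftRel_apply] at hxy
    have h1 := hl _ hxy (y⁻¹ • v)
    rw [smul_smul, mul_assoc, mul_inv_cancel, mul_one] at h1
    exact h1)
  have hf : ∀ v x, f v (QuotientGroup.mk x) = l (x⁻¹ • v) := fun v x => rfl
  -- the points
  let pt : Option T → X ⧸ M := fun o => o.elim (QuotientGroup.mk 1) (fun t => QuotientGroup.mk ((t : X) * g₁))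
  have hpt : Function.Bijective pt := by
    constructor
    · rintro (_ | t) (_ | s) hts
      · rfl
      · exfalso
        have h1 : (QuotientGroup.mk 1 : X ⧸ M) = QuotientGroup.mk ((s : X) * g₁) := hts
        rw [QuotientGroup.eq, inv_one, one_mul] at h1
        exact h.g₁M ((Subgroup.mul_mem_cancel_left M (h.TM s.2)).1 h1)
      · exfalso
        have h1 : (QuotientGroup.mk ((t : X) * g₁) : X ⧸ M) = QuotientGroup.mk 1 := hts
        rw [eq_comm, QuotientGroup.eq, inv_one, one_mul] at h1
        exact h.g₁M ((Subgroup.mul_mem_cancel_left M (h.TM t.2)).1 h1)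
      · have h1 : (QuotientGroup.mk ((t : X) * g₁) : X ⧸ M) = QuotientGroup.mk ((s : X) * g₁) := hts
        rw [QuotientGroup.eq] at h1
        have h2 : g₁⁻¹ * ((t : X)⁻¹ * s) * g₁ ∈ M := by
          convert h1 using 1; group
        have h3 := h.free _ (mul_mem (inv_mem t.2) s.2) h2
        rw [inv_mul_eq_one] at h3
        rw [Subtype.ext h3]
    · intro c
      induction c using QuotientGroup.induction_on with
      | H x =>
        by_cases hx : x ∈ M
        · refine ⟨none, ?_⟩
          show (QuotientGroup.mk 1 : X ⧸ M) = QuotientGroup.mk x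
          rw [QuotientGroup.eq, inv_one, one_mul]; exact hx
        · obtain ⟨t, ht, m, hm, rfl⟩ := h.cov x hx
          refine ⟨some ⟨t, ht⟩, ?_⟩
          show (QuotientGroup.mk (t * g₁) : X ⧸ M) = QuotientGroup.mk (t * g₁ * m)
          rw [QuotientGroup.eq, inv_mul_cancel_left]; exact hm
  have hsum : ∀ v, ∑ c, f v c = l v + ∑ t : T, l (g₁⁻¹ • ((t : X)⁻¹ • v)) := by
    intro v
    rw [← Equiv.sum_comp (Equiv.ofBijective pt hpt) (f v), Fintype.sum_option]
    congr 1
    · show l ((1 : X)⁻¹ • v) = l v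
      rw [inv_one, one_smul]
    · refine Finset.sum_congr rfl fun t _ => ?_
      show l (((t : X) * g₁)⁻¹ • v) = _
      rw [mul_inv_rev, mul_smul]
  have hinv : ∀ (x : X) v, ∑ c, f (x • v) c = ∑ c, f v c := by
    intro x v
    rw [← Equiv.sum_comp (MulAction.toPerm x) (f (x • v))]
    refine Finset.sum_congr rfl fun c _ => ?_
    induction c using QuotientGroup.induction_on with
    | H y =>
      show l ((x * y)⁻¹ • (x • v)) = l (y⁻¹ • v)
      rw [mul_inv_rev, smul_smul, inv_mul_cancel_right]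
  -- the kernel
  have hadd : ∀ v w, ∑ c, f (v + w) c = ∑ c, f v c + ∑ c, f w c := by
    intro v w
    rw [← Finset.sum_add_distrib]
    refine Finset.sum_congr rfl fun c _ => ?_
    induction c using QuotientGroup.induction_on with
    | H y => rw [hf, hf, hf, smul_add, map_add]
  let φ : F →+ ZMod p :=
    { toFun := fun v => ∑ c, f v c
      map_zero' := by
        have := hadd 0 0
        rw [add_zero] at this
        exact left_eq_add.1 this
      map_add' := hadd }
  have hφ : ∀ v, φ v = ∑ c, f v c := fun v => rfl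
  have hker : φ.ker = ⊤ := by
    refine (h.irr φ.ker fun x v hv => ?_).resolve_left fun e => ?_
    · rw [AddMonoidHom.mem_ker, hφ, hinv, ← hφ]; exact hv
    · obtain ⟨x, v, hv⟩ := h.nt
      apply hv
      have h1 : x • v - v ∈ φ.ker := by
        rw [AddMonoidHom.mem_ker, map_sub, hφ, hφ, hinv, sub_self]
      rw [e, AddSubgroup.mem_bot, sub_eq_zero] at h1
      exact h1
  rw [← hsum, ← hφ, ← AddMonoidHom.mem_ker, hker]
  trivial

/-- `p` divides `|T|` -/
theorem Hyp.card_T : (Nat.card T : ZMod p) = 0 := by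
  rw [ZMod.natCast_eq_zero_iff]
  obtain ⟨n, hn⟩ := IsPGroup.iff_card.1 h.pT
  rw [hn]
  have hn0 : n ≠ 0 := by
    rintro rfl
    rw [pow_zero] at hn
    exact h.Tne (Subgroup.card_eq_one.1 hn)
  exact dvd_pow_self p hn0

/-- `|C_F(T)| ≤ p` -/
theorem Hyp.card_fx : Nat.card (fx F T) ≤ p := by
  classical
  have _ : Fintype T := Fintype.ofFinite _
  obtain ⟨l, ⟨v₀, hv₀⟩, hl⟩ := h.exists_functional
  have h1 : ∀ v ∈ fx F T, l v = 0 := by
    intro v hv
    have h2 := h.sum_zero hl v
    have h3 : ∀ t : T, l (g₁⁻¹ • ((t : X)⁻¹ • v)) = l (g₁⁻¹ • v) := fun t => by rw [hv _ (inv_mem t.2)]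
    rw [Finset.sum_congr rfl fun t _ => h3 t, Finset.sum_const, Finset.card_univ, ← Nat.card_eq_fintype_card,
      nsmul_eq_mul, h.card_T, zero_mul, add_zero] at h2
    exact h2
  have hinj : Function.Injective (fun v : fx F T => l (g₁⁻¹ • (v : F))) := by
    intro v w hvw
    have h2 : l (g₁⁻¹ • ((v : F) - w)) = 0 := by
      rw [smul_sub, map_sub, sub_eq_zero]; exact hvw
    have hm : (v : F) - w ∈ fx F T := (fx F T).sub_mem v.2 w.2
    -- the invariant subgroup
    let N : AddSubgroup F :=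
      { carrier := {u | ∀ x : X, l (x • u) = 0}
        zero_mem' := fun x => by rw [smul_zero, map_zero]
        add_mem' := fun {a b} ha hb x => by rw [smul_add, map_add, ha, hb, add_zero]
        neg_mem' := fun {a} ha x => by rw [smul_neg, map_neg, ha, neg_zero] }
    have hN : N = ⊥ := by
      refine (h.irr N fun x u hu y => ?_).resolve_right fun e => ?_
      · rw [smul_smul]; exact hu _
      · apply hv₀
        have : v₀ ∈ N := by rw [e]; trivial
        have := this 1
        rwa [one_smul] at this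
    have h3 : (v : F) - w ∈ N := by
      intro x
      by_cases hx : x⁻¹ ∈ M
      · rw [hl x ((inv_mem_iff).1 hx)]
        exact h1 _ hm
      · obtain ⟨t, ht, m, hm', e⟩ := h.cov _ hx
        have e' : x = m⁻¹ * (g₁⁻¹ * t⁻¹) := by rw [← inv_inv x, e]; group
        rw [e', mul_smul, mul_smul, hl _ (inv_mem hm'), hm _ (inv_mem ht)]
        exact h2
    rw [hN, AddSubgroup.mem_bot, sub_eq_zero] at h3
    exact Subtype.ext h3
  have := Nat.card_le_card_of_injective _ hinj
  rwa [Nat.card_zmod] at this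

/-- `|F| > p²` for odd `p` -/
theorem Hyp.card_gt (hp2 : p ≠ 2) : p ^ 2 < Nat.card F := by
  classical
  have _ : Fintype T := Fintype.ofFinite _
  obtain ⟨l, ⟨v₀, hv₀⟩, hl⟩ := h.exists_functional
  by_contra hcon
  push Not at hcon
  have hF : ¬ (⊤ : AddSubgroup F) ≤ ⊥ := by
    intro e
    have : v₀ ∈ (⊥ : AddSubgroup F) := e (AddSubgroup.mem_top _)
    rw [AddSubgroup.mem_bot] at this
    exact hv₀ (by rw [this, map_zero])
  have hcd : ∀ {H K : AddSubgroup F}, H < K → p * Nat.card H ≤ Nat.card K := by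
    intro H K hHK
    have h1 := card_mul_relIndex hHK.le
    have h2 : p ∣ H.relIndex K := by
      have h3 : H.relIndex K ≠ 1 := by
        intro e
        exact hHK.not_ge (AddSubgroup.relIndex_eq_one.1 e)
      have h4 : ∃ k, Nat.card F = p ^ k := by
        have hpg : IsPGroup p (Multiplicative F) := fun x => ⟨1, by
          rw [pow_one]
          exact congrArg Multiplicative.ofAdd (h.pF (Multiplicative.toAdd x))⟩
        have h5 : ∃ n, Nat.card (Multiplicative F) = p ^ n := IsPGroup.iff_card.1 hpg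
        exact h5
      obtain ⟨k, hk⟩ := h4
      have h5 : H.relIndex K ∣ p ^ k := by
        rw [← hk]
        refine (Dvd.intro_left _ h1).trans ?_
        exact AddSubgroup.card_addSubgroup_dvd_card K
      obtain ⟨i, -, hi⟩ := (Nat.dvd_prime_pow hp.out).1 h5
      rw [hi] at h3 ⊢
      have hi0 : i ≠ 0 := by rintro rfl; exact h3 (pow_zero p)
      exact dvd_pow_self p hi0
    have h3 : 0 < H.relIndex K := by
      refine Nat.pos_of_ne_zero fun e => ?_
      rw [e, mul_zero] at h1
      exact (card_pos K).ne h1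
    calc p * Nat.card H = Nat.card H * p := mul_comm _ _
      _ ≤ Nat.card H * H.relIndex K := Nat.mul_le_mul_left _ (Nat.le_of_dvd h3 h2)
      _ = _ := h1
  -- `[F, T] ≤ C_F(T)`
  have hquad : ∀ v : F, ∀ t ∈ T, t • v - v ∈ fx F T := by
    obtain ⟨v₁, -, hv₁, hv₁'⟩ := exists_fixed h.pT h.pF (H := ⊤) (K := ⊥)
      (fun t _ v hv => by rw [AddSubgroup.mem_bot] at hv ⊢; rw [hv, smul_zero]) (fun _ _ _ _ => AddSubgroup.mem_top _) bot_le hF
    have hC : (⊥ : AddSubgroup F) < fx F T := by
      rw [bot_lt_iff_ne_bot]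
      intro e
      apply hv₁
      rw [← e]
      intro t ht
      have := hv₁' t ht
      rw [AddSubgroup.mem_bot, sub_eq_zero] at this
      exact this
    have hCc := hcd hC
    rw [AddSubgroup.card_bot, mul_one] at hCc
    by_cases hCt : (⊤ : AddSubgroup F) ≤ fx F T
    · intro v t ht
      exact hCt (AddSubgroup.mem_top _)
    · have hCinv : ∀ t ∈ T, ∀ v ∈ fx F T, t • v ∈ fx F T := fun t ht v hv => by rw [hv t ht]; exact hv
      obtain ⟨v₂, -, hv₂, hv₂'⟩ := exists_fixed h.pT h.pF (H := ⊤) (K := fx F T) hCinv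
        (fun _ _ _ _ => AddSubgroup.mem_top _) le_top hCt
      let D : AddSubgroup F :=
        { carrier := {v | ∀ t ∈ T, t • v - v ∈ fx F T}
          zero_mem' := fun t ht => by rw [smul_zero, sub_zero]; exact zero_mem _
          add_mem' := fun {a b} ha hb t ht => by
            have := (fx F T).add_mem (ha t ht) (hb t ht)
            rw [smul_add]; convert this using 1; abel
          neg_mem' := fun {a} ha t ht => by
            have := (fx F T).neg_mem (ha t ht)
            rw [smul_neg]; convert this using 1; abel }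
      have hCD : fx F T < D := by
        refine lt_of_le_of_ne (fun v hv t ht => ?_) fun e => hv₂ ?_
        · rw [hv t ht, sub_self]; exact zero_mem _
        · rw [e]; exact hv₂'
      have h3 := hcd hCD
      have h4 : D = ⊤ := by
        apply eq_of_card_le le_top
        rw [card_top]
        calc Nat.card F ≤ p ^ 2 := hcon
          _ = p * p := sq p
          _ ≤ p * Nat.card (fx F T) := Nat.mul_le_mul_left _ hCc
          _ ≤ _ := h3
      intro v t ht
      have : v ∈ D := by rw [h4]; trivial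
      exact this t ht
  -- the sum is zero
  have hsum : ∀ v : F, ∑ t : T, (t : X)⁻¹ • v = 0 := by
    intro v
    let k : T → F := fun t => (t : X) • v - v
    have hk : ∀ t : T, k t⁻¹ = - k t := by
      intro t
      have h1 := hquad v t t.2
      have h2 := h1 _ (inv_mem t.2)
      rw [smul_sub, inv_smul_smul] at h2
      show ((t⁻¹ : T) : X) • v - v = -((t : X) • v - v)
      rw [← h2, Subgroup.coe_inv]; abel
    have h1 : ∑ t : T, k t⁻¹ = ∑ t : T, k t := Equiv.sum_comp (Equiv.inv T) k
    have h2 : ∑ t : T, k t⁻¹ = - ∑ t : T, k t := by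
      rw [Finset.sum_congr rfl fun t _ => hk t, Finset.sum_neg_distrib]
    have h3 : ∑ t : T, k t⁻¹ = 0 := by
      have h4 : 2 • ∑ t : T, k t⁻¹ = 0 := by
        rw [two_smul]; nth_rewrite 1 [h1]; rw [h2, add_neg_cancel]
      have h5 := h.pF (∑ t : T, k t⁻¹)
      have hco : Nat.Coprime 2 p := (Nat.coprime_primes Nat.prime_two hp.out).2 (Ne.symm hp2)
      have h6 : addOrderOf (∑ t : T, k t⁻¹) ∣ 1 := by
        have h7 := Nat.dvd_gcd (addOrderOf_dvd_of_nsmul_eq_zero h4) (addOrderOf_dvd_of_nsmul_eq_zero h5)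
        rwa [hco] at h7
      exact AddMonoid.addOrderOf_eq_one_iff.1 (Nat.dvd_one.1 h6)
    have h4 : ∑ t : T, (t : X)⁻¹ • v = ∑ t : T, (k t⁻¹ + v) := by
      refine Finset.sum_congr rfl fun t _ => ?_
      show _ = ((t⁻¹ : T) : X) • v - v + v
      rw [Subgroup.coe_inv]; abel
    rw [h4, Finset.sum_add_distrib, h3, zero_add, Finset.sum_const, Finset.card_univ, ← Nat.card_eq_fintype_card]
    have h5 := h.card_T
    rw [ZMod.natCast_eq_zero_iff] at h5
    obtain ⟨c, hc⟩ := h5
    rw [hc, mul_comm, mul_smul, h.pF, smul_zero]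
  apply hv₀
  have h1 := h.sum_zero hl v₀
  have h2 : ∑ t : T, l (g₁⁻¹ • ((t : X)⁻¹ • v₀)) = l (g₁⁻¹ • ∑ t : T, (t : X)⁻¹ • v₀) := by
    rw [Finset.smul_sum, map_sum]
  rw [h2, hsum, smul_zero, map_zero, add_zero] at h1
  exact h1

end Cfsg.Agent.H215.Bad
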