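import Cfsg.Agent.H264.CDLarge
import Cfsg.Prelude.Def_ConjugacyFunctors

/-!
# The characteristic functors `J`, `Jt`, `D`, `K`

`J P` is generated by the abelian subgroups of `P` of largest order, `Jt P = C_P(Z(J P))`, `D P` is the commutator
subgroup of the minimal centrally large subgroups of `P`; `K P` is `D (Jt P)` if this is nontrivial and `J P` otherwise.
-/

set_option autoImplicit false
set_option linter.unusedSectionVars false
set_option linter.unusedVariables false

open Cfsg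

namespace Cfsg.Agent.H215.Fun

variable {G H : Type*} [Group G] [Group H]

/-- abelian -/
def Ab (A : Subgroup G) : Prop := ∀ a ∈ A, ∀ b ∈ A, a * b = b * a

/-- `A` is an abelian subgroup of largest order of `P` -/
def LA (P A : Subgroup G) : Prop := A ≤ P ∧ Ab A ∧ ∀ B ≤ P, Ab B → Nat.card B ≤ Nat.card A

/-- the Thompson subgroup -/
def J (P : Subgroup G) : Subgroup G := sSup {A | LA P A}

/-- the centre, as a subgroup of the ambient group -/
def Zs (P : Subgroup G) : Subgroup G := P ⊓ Subgroup.centralizer (P : Set G)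

/-- `C_P(Z(J P))` -/
def Jt (P : Subgroup G) : Subgroup G := P ⊓ Subgroup.centralizer (Zs (J P) : Set G)

/-- `|R| |Z(R)|` -/
noncomputable def fv (R : Subgroup G) : ℕ := Nat.card R * Nat.card (Zs R)

/-- centrally large in `P` -/
def CL (P R : Subgroup G) : Prop := R ≤ P ∧ ∀ R' ≤ P, fv R' ≤ fv R

/-- minimal centrally large in `P` -/
def MCL (P R : Subgroup G) : Prop := CL P R ∧ ∀ R' ≤ R, CL P R' → R' = R

/-- the commutator subgroup of the minimal centrally large subgroups -/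
def D (P : Subgroup G) : Subgroup G := sSup {X | ∃ R, MCL P R ∧ X = ⁅R, R⁆}

open Classical in
/-- the functor -/
noncomputable def K (P : Subgroup G) : Subgroup G := if D (Jt P) = ⊥ then J P else D (Jt P)

theorem mem_Zs {P : Subgroup G} {x : G} : x ∈ Zs P ↔ x ∈ P ∧ ∀ y ∈ P, y * x = x * y := by
  rw [Zs, Subgroup.mem_inf, Subgroup.mem_centralizer_iff]; rfl

theorem Zs_le {P : Subgroup G} : Zs P ≤ P := inf_le_left

theorem Jt_le {P : Subgroup G} : Jt P ≤ P := inf_le_left

theorem J_le {P : Subgroup G} : J P ≤ P := sSup_le fun _ h => h.1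

theorem le_J {P A : Subgroup G} (h : LA P A) : A ≤ J P := le_sSup h

theorem mem_Jt {P : Subgroup G} {x : G} : x ∈ Jt P ↔ x ∈ P ∧ ∀ y ∈ Zs (J P), y * x = x * y := by
  rw [Jt, Subgroup.mem_inf, Subgroup.mem_centralizer_iff]; rfl

theorem J_le_Jt {P : Subgroup G} : J P ≤ Jt P := by
  intro x hx
  rw [mem_Jt]
  exact ⟨J_le hx, fun y hy => ((mem_Zs.1 hy).2 x hx).symm⟩

theorem Ab.mono {A B : Subgroup G} (h : Ab B) (hAB : A ≤ B) : Ab A := fun a ha b hb => h a (hAB ha) b (hAB hb)

/-! ### transport along injective homomorphisms -/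

section map

variable (f : G →* H) (hf : Function.Injective f)
include hf

theorem exists_eq_map {P : Subgroup G} {B : Subgroup H} (hB : B ≤ P.map f) :
    ∃ A ≤ P, B = A.map f := by
  refine ⟨B.comap f, ?_, ?_⟩
  · intro x hx
    obtain ⟨y, hy, e⟩ := hB (Subgroup.mem_comap.1 hx)
    rwa [← hf e]
  · rw [Subgroup.map_comap_eq, inf_eq_right.2]
    exact hB.trans (by rw [MonoidHom.range_eq_map]; exact Subgroup.map_mono le_top)

theorem card_map (A : Subgroup G) : Nat.card (A.map f) = Nat.card A :=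
  Subgroup.card_map_of_injective hf

theorem map_le_map {A B : Subgroup G} : A.map f ≤ B.map f ↔ A ≤ B := Subgroup.map_le_map_iff_of_injective hf

theorem ab_map {A : Subgroup G} : Ab (A.map f) ↔ Ab A := by
  constructor
  · intro h a ha b hb
    apply hf
    rw [map_mul, map_mul]
    exact h _ ⟨a, ha, rfl⟩ _ ⟨b, hb, rfl⟩
  · rintro h _ ⟨a, ha, rfl⟩ _ ⟨b, hb, rfl⟩
    rw [← map_mul, ← map_mul, h a ha b hb]

theorem LA_map {P A : Subgroup G} : LA (P.map f) (A.map f) ↔ LA P A := by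
  constructor
  · rintro ⟨h1, h2, h3⟩
    refine ⟨(map_le_map f hf).1 h1, (ab_map f hf).1 h2, fun B hB hBa => ?_⟩
    have := h3 (B.map f) ((map_le_map f hf).2 hB) ((ab_map f hf).2 hBa)
    rwa [card_map f hf, card_map f hf] at this
  · rintro ⟨h1, h2, h3⟩
    refine ⟨(map_le_map f hf).2 h1, (ab_map f hf).2 h2, fun B hB hBa => ?_⟩
    obtain ⟨B', hB', rfl⟩ := exists_eq_map f hf hB
    rw [card_map f hf, card_map f hf]
    exact h3 B' hB' ((ab_map f hf).1 hBa)

theorem J_map (P : Subgroup G) : J (P.map f) = (J P).map f := by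
  apply le_antisymm
  · apply sSup_le
    intro B hB
    obtain ⟨A, hA, rfl⟩ := exists_eq_map f hf hB.1
    exact Subgroup.map_mono (le_J ((LA_map f hf).1 hB))
  · rw [Subgroup.map_le_iff_le_comap]
    apply sSup_le
    intro A hA
    rw [← Subgroup.map_le_iff_le_comap]
    exact le_J ((LA_map f hf).2 hA)

theorem map_inf_centralizer (P Q : Subgroup G) :
    (P ⊓ Subgroup.centralizer (Q : Set G)).map f = P.map f ⊓ Subgroup.centralizer (Q.map f : Set H) := by
  ext y
  constructor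
  · rintro ⟨x, ⟨hx, hx'⟩, rfl⟩
    refine Subgroup.mem_inf.2 ⟨⟨x, hx, rfl⟩, ?_⟩
    rw [Subgroup.mem_centralizer_iff]
    rintro _ ⟨q, hq, rfl⟩
    rw [← map_mul, ← map_mul, Subgroup.mem_centralizer_iff.1 hx' q hq]
  · rintro ⟨⟨x, hx, rfl⟩, hx'⟩
    refine ⟨x, Subgroup.mem_inf.2 ⟨hx, ?_⟩, rfl⟩
    rw [Subgroup.mem_centralizer_iff]
    intro q hq
    apply hf
    rw [map_mul, map_mul]
    exact Subgroup.mem_centralizer_iff.1 hx' _ ⟨q, hq, rfl⟩

theorem Zs_map (P : Subgroup G) : Zs (P.map f) = (Zs P).map f := (map_inf_centralizer f hf P P).symm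

theorem Jt_map (P : Subgroup G) : Jt (P.map f) = (Jt P).map f := by
  rw [Jt, Jt, map_inf_centralizer f hf, J_map f hf, Zs_map f hf]

theorem fv_map (P : Subgroup G) : fv (P.map f) = fv P := by
  rw [fv, fv, Zs_map f hf, card_map f hf, card_map f hf]

theorem CL_map {P R : Subgroup G} : CL (P.map f) (R.map f) ↔ CL P R := by
  constructor
  · rintro ⟨h1, h2⟩
    refine ⟨(map_le_map f hf).1 h1, fun B hB => ?_⟩
    have := h2 (B.map f) ((map_le_map f hf).2 hB)
    rwa [fv_map f hf, fv_map f hf] at this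
  · rintro ⟨h1, h2⟩
    refine ⟨(map_le_map f hf).2 h1, fun B hB => ?_⟩
    obtain ⟨B', hB', rfl⟩ := exists_eq_map f hf hB
    rw [fv_map f hf, fv_map f hf]
    exact h2 B' hB'

theorem MCL_map {P R : Subgroup G} : MCL (P.map f) (R.map f) ↔ MCL P R := by
  constructor
  · rintro ⟨h1, h2⟩
    refine ⟨(CL_map f hf).1 h1, fun B hB hBc => ?_⟩
    exact Subgroup.map_injective hf (h2 (B.map f) ((map_le_map f hf).2 hB) ((CL_map f hf).2 hBc))
  · rintro ⟨h1, h2⟩
    refine ⟨(CL_map f hf).2 h1, fun B hB hBc => ?_⟩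
    obtain ⟨B', hB', rfl⟩ := exists_eq_map f hf hB
    rw [h2 B' hB' ((CL_map f hf).1 hBc)]

theorem D_map (P : Subgroup G) : D (P.map f) = (D P).map f := by
  apply le_antisymm
  · apply sSup_le
    rintro _ ⟨R, hR, rfl⟩
    obtain ⟨A, hA, rfl⟩ := exists_eq_map f hf hR.1.1
    rw [← Subgroup.map_commutator]
    exact Subgroup.map_mono (le_sSup ⟨A, (MCL_map f hf).1 hR, rfl⟩)
  · rw [Subgroup.map_le_iff_le_comap]
    apply sSup_le
    rintro _ ⟨R, hR, rfl⟩
    rw [← Subgroup.map_le_iff_le_comap, Subgroup.map_commutator]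
    exact le_sSup ⟨R.map f, (MCL_map f hf).2 hR, rfl⟩

theorem K_map (P : Subgroup G) : K (P.map f) = (K P).map f := by
  have h1 : D (Jt (P.map f)) = (D (Jt P)).map f := by rw [Jt_map f hf, D_map f hf]
  have h2 : D (Jt (P.map f)) = ⊥ ↔ D (Jt P) = ⊥ := by
    rw [h1, Subgroup.map_eq_bot_iff_of_injective _ hf]
  rw [K, K]
  by_cases h : D (Jt P) = ⊥
  · rw [if_pos h, if_pos (h2.2 h), J_map f hf]
  · rw [if_neg h, if_neg (fun e => h (h2.1 e)), h1]

end map

/-! ### conjugation -/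

theorem conj_eq {W : Subgroup G → Subgroup G}
    (hW : ∀ (f : G →* G), Function.Injective f → ∀ P, W (P.map f) = (W P).map f) {P : Subgroup G} {g : G}
    (hg : g ∈ Subgroup.normalizer (P : Set G)) : g ∈ Subgroup.normalizer (W P : Set G) := by
  have key : ∀ Q : Subgroup G, g ∈ Subgroup.normalizer (Q : Set G) ↔ Q.map (MulAut.conj g).toMonoidHom = Q := by
    intro Q
    rw [Subgroup.mem_normalizer_iff]
    constructor
    · intro h
      ext x
      constructor
      · rintro ⟨y, hy, rfl⟩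
        exact (h y).1 hy
      · intro hx
        refine ⟨g⁻¹ * x * g, (h _).2 ?_, ?_⟩
        · rw [show g * (g⁻¹ * x * g) * g⁻¹ = x by group]; exact hx
        · show g * (g⁻¹ * x * g) * g⁻¹ = x; group
    · intro h x
      constructor
      · intro hx
        rw [← h]
        exact ⟨x, hx, rfl⟩
      · intro hx
        rw [← h] at hx
        obtain ⟨y, hy, e⟩ := hx
        have : y = x := by
          have e' : g * y * g⁻¹ = g * x * g⁻¹ := e
          exact mul_left_cancel (mul_right_cancel e')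
        rwa [this] at hy
  rw [key]
  have h1 := hW (MulAut.conj g).toMonoidHom (MulAut.conj g).injective P
  rw [(key P).1 hg] at h1
  exact h1.symm

theorem normalizer_le_J {P : Subgroup G} : Subgroup.normalizer (P : Set G) ≤ Subgroup.normalizer (J P : Set G) :=
  fun _ h => conj_eq (fun f hf P => J_map f hf P) h

theorem normalizer_le_Zs {P : Subgroup G} : Subgroup.normalizer (P : Set G) ≤ Subgroup.normalizer (Zs P : Set G) :=
  fun _ h => conj_eq (fun f hf P => Zs_map f hf P) h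

theorem normalizer_le_Jt {P : Subgroup G} : Subgroup.normalizer (P : Set G) ≤ Subgroup.normalizer (Jt P : Set G) :=
  fun _ h => conj_eq (fun f hf P => Jt_map f hf P) h

theorem normalizer_le_D {P : Subgroup G} : Subgroup.normalizer (P : Set G) ≤ Subgroup.normalizer (D P : Set G) :=
  fun _ h => conj_eq (fun f hf P => D_map f hf P) h

theorem normalizer_le_K {P : Subgroup G} : Subgroup.normalizer (P : Set G) ≤ Subgroup.normalizer (K P : Set G) :=
  fun _ h => conj_eq (fun f hf P => K_map f hf P) h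

/-! ### comparison with the definitions of the statements -/

section CD

theorem card_center (R : Subgroup G) : Nat.card (Subgroup.center R) = Nat.card (Zs R) :=
  Cfsg.Agent.H264.CD.card_center_eq R

variable [Finite G]

theorem isCentrallyLarge_iff (R : Subgroup G) : IsCentrallyLarge R ↔ CL ⊤ R := by
  constructor
  · intro h
    refine ⟨le_top, fun R' _ => ?_⟩
    have h1 := Cfsg.Agent.H264.CD.cent_le R'
    rw [← h, card_center, card_center] at h1
    exact h1
  · rintro ⟨-, h⟩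
    obtain ⟨R', hR'⟩ := Cfsg.Agent.H264.CD.exists_cent (G := G)
    have h1 := h R' le_top
    apply le_antisymm (Cfsg.Agent.H264.CD.cent_le R)
    rw [← hR', card_center, card_center]
    exact h1

theorem isMinimalCentrallyLarge_iff (R : Subgroup G) : IsMinimalCentrallyLarge R ↔ MCL ⊤ R := by
  unfold IsMinimalCentrallyLarge MCL
  rw [isCentrallyLarge_iff]
  refine and_congr_right fun _ => ?_
  constructor
  · intro h R' h1 h2
    exact h R' h1 ((isCentrallyLarge_iff R').2 h2)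
  · intro h R' h1 h2
    exact h R' h1 ((isCentrallyLarge_iff R').1 h2)

theorem top_map_subtype (P : Subgroup G) : (⊤ : Subgroup P).map P.subtype = P := by
  rw [← MonoidHom.range_eq_map, Subgroup.range_subtype]

theorem subgroupOf_map {P R : Subgroup G} (h : R ≤ P) : (R.subgroupOf P).map P.subtype = R := by
  rw [Subgroup.subgroupOf_map_subtype, inf_eq_left.2 h]

theorem CL_iff {P R : Subgroup G} (h : R ≤ P) : CL P R ↔ IsCentrallyLarge (R.subgroupOf P) := by
  rw [isCentrallyLarge_iff, ← CL_map P.subtype P.subtype_injective, top_map_subtype, subgroupOf_map h]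

theorem MCL_iff {P R : Subgroup G} (h : R ≤ P) : MCL P R ↔ IsMinimalCentrallyLarge (R.subgroupOf P) := by
  rw [isMinimalCentrallyLarge_iff, ← MCL_map P.subtype P.subtype_injective, top_map_subtype, subgroupOf_map h]

theorem MCL.commutator_eq {P R R' : Subgroup G} (h : MCL P R) (h' : MCL P R') : ⁅R, R⁆ = ⁅R', R'⁆ := by
  have h1 := Cfsg.Agent.H264.CD.commutator_eq' ((MCL_iff h.1.1).1 h) ((MCL_iff h'.1.1).1 h')
  have h2 := congrArg (fun Q => Q.map P.subtype) h1
  simp only [Subgroup.map_commutator] at h2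
  rwa [subgroupOf_map h.1.1, subgroupOf_map h'.1.1] at h2

theorem D_eq {P R : Subgroup G} (h : MCL P R) : D P = ⁅R, R⁆ := by
  apply le_antisymm
  · apply sSup_le
    rintro _ ⟨R', hR', rfl⟩
    exact (hR'.commutator_eq h).le
  · exact le_sSup ⟨R, h, rfl⟩

theorem exists_CL (P : Subgroup G) : ∃ R, CL P R := by
  obtain ⟨R, hR⟩ := Cfsg.Agent.H264.CD.exists_cent (G := P)
  refine ⟨R.map P.subtype, ?_⟩
  have := (CL_map P.subtype P.subtype_injective).2 ((isCentrallyLarge_iff R).1 hR)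
  rwa [top_map_subtype] at this

theorem exists_MCL_le {P Q : Subgroup G} (h : CL P Q) : ∃ R ≤ Q, MCL P R := by
  obtain ⟨R, ⟨h1, h2⟩, hmin⟩ := (Set.toFinite {R : Subgroup G | R ≤ Q ∧ CL P R}).exists_minimal ⟨Q, le_rfl, h⟩
  exact ⟨R, h1, h2, fun R' hR' hc => le_antisymm hR' (hmin ⟨hR'.trans h1, hc⟩ hR')⟩

theorem fv_eq_of_CL {P R R' : Subgroup G} (h : CL P R) (h' : CL P R') : fv R = fv R' :=
  le_antisymm (h'.2 _ h.1) (h.2 _ h'.1)

theorem CL_of_fv {P R R' : Subgroup G} (h : CL P R) (h1 : R' ≤ P) (h2 : fv R ≤ fv R') : CL P R' :=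
  ⟨h1, fun Q hQ => (h.2 Q hQ).trans h2⟩

/-- `C_P(R) ≤ R` for `R` centrally large in `P` -/
theorem CL.cent {P R : Subgroup G} (h : CL P R) : P ⊓ Subgroup.centralizer (R : Set G) ≤ R := by
  have h1 := ((Cfsg.Agent.H264.CD.isCentrallyLarge_iff _).1 ((CL_iff h.1).1 h)).2
  rintro x ⟨hx, hx'⟩
  have h2 : (⟨x, hx⟩ : P) ∈ R.subgroupOf P := by
    apply h1
    rw [Subgroup.mem_centralizer_iff]
    intro y hy
    exact Subtype.ext (Subgroup.mem_centralizer_iff.1 hx' _ hy)
  exact h2

/-- if `D P = 1` then `|R| |Z(R)| ≤ a²` -/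
theorem fv_le_of_D {P : Subgroup G} (hD : D P = ⊥) {A : Subgroup G}
    (hA : ∀ B ≤ P, Ab B → Nat.card B ≤ Nat.card A) {R : Subgroup G} (hR : R ≤ P) :
    fv R ≤ Nat.card A * Nat.card A := by
  obtain ⟨Q, hQ⟩ := exists_CL P
  obtain ⟨R₀, -, hR₀⟩ := exists_MCL_le hQ
  have h1 : ⁅R₀, R₀⁆ = ⊥ := by rw [← D_eq hR₀, hD]
  have h2 : Ab R₀ := by
    intro a ha b hb
    have h3 := Subgroup.commutator_mem_commutator ha hb
    rw [h1, Subgroup.mem_bot] at h3
    exact commutatorElement_eq_one_iff_mul_comm.1 h3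
  have h3 := hA R₀ hR₀.1.1 h2
  refine (hR₀.1.2 R hR).trans ?_
  rw [fv]
  exact Nat.mul_le_mul h3 ((Subgroup.card_le_of_le Zs_le).trans h3)

end CD

/-! ### basic properties of `J` -/

section J

variable [Finite G]

theorem exists_LA (P : Subgroup G) : ∃ A, LA P A := by
  classical
  obtain ⟨A, ⟨h1, h2⟩, hmax⟩ := (Set.toFinite {A : Subgroup G | A ≤ P ∧ Ab A}).exists_maximalFor
    (fun A : Subgroup G => Nat.card A) {A : Subgroup G | A ≤ P ∧ Ab A} ⟨⊥, bot_le, fun a ha b hb => by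
      rw [Subgroup.mem_bot] at ha hb; rw [ha, hb]⟩
  refine ⟨A, h1, h2, fun B hB hBa => ?_⟩
  by_contra hcon
  push Not at hcon
  exact hcon.not_ge (hmax ⟨hB, hBa⟩ hcon.le)

/-- an abelian subgroup of largest order contains everything in `P` that centralizes it -/
theorem LA.mem {P A : Subgroup G} (h : LA P A) {x : G} (hx : x ∈ P) (hc : ∀ a ∈ A, a * x = x * a) : x ∈ A := by
  have h1 : Ab (A ⊔ Subgroup.zpowers x) := by
    have h2 : A ⊔ Subgroup.zpowers x ≤ Subgroup.centralizer ((A ⊔ Subgroup.zpowers x : Subgroup G) : Set G) := by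
      have h3 : A ≤ Subgroup.centralizer ((A ⊔ Subgroup.zpowers x : Subgroup G) : Set G) := by
        rw [Subgroup.le_centralizer_iff]
        apply sup_le
        · intro a ha
          rw [Subgroup.mem_centralizer_iff]
          exact fun b hb => h.2.1 b hb a ha
        · rw [Subgroup.zpowers_le, Subgroup.mem_centralizer_iff]
          exact hc
      apply sup_le h3
      rw [Subgroup.le_centralizer_iff]
      apply sup_le
      · intro a ha
        rw [Subgroup.mem_centralizer_iff]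
        rintro _ ⟨k, rfl⟩
        exact ((Commute.zpow_left (show Commute x a from (hc a ha).symm) k))
      · intro y hy
        rw [Subgroup.mem_centralizer_iff]
        obtain ⟨k, rfl⟩ := hy
        rintro _ ⟨l, rfl⟩
        exact (Commute.zpow_zpow_self x l k)
    intro a ha b hb
    exact (Subgroup.mem_centralizer_iff.1 (h2 hb) a ha)
  have h2 := h.2.2 _ (sup_le h.1 (by rw [Subgroup.zpowers_le]; exact hx)) h1
  have h3 : A = A ⊔ Subgroup.zpowers x := Subgroup.eq_of_le_of_card_ge le_sup_left h2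
  rw [h3]
  exact Subgroup.mem_sup_right (Subgroup.mem_zpowers x)

theorem Zs_le_LA {P A : Subgroup G} (h : LA P A) : Zs P ≤ A := fun x hx =>
  h.mem (Zs_le hx) fun a ha => (mem_Zs.1 hx).2 a (h.1 ha)

theorem ZJ_le_LA {P A : Subgroup G} (h : LA P A) : Zs (J P) ≤ A := fun x hx =>
  h.mem (J_le (Zs_le hx)) fun a ha => (mem_Zs.1 hx).2 a (le_J h ha)

theorem mem_ZJ {P : Subgroup G} {x : G} (h : ∀ A, LA P A → x ∈ A) : x ∈ Zs (J P) := by
  obtain ⟨A₀, hA₀⟩ := exists_LA P
  rw [mem_Zs]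
  refine ⟨le_J hA₀ (h A₀ hA₀), ?_⟩
  have h1 : J P ≤ Subgroup.centralizer {x} := by
    apply sSup_le
    intro A hA a ha
    rw [Subgroup.mem_centralizer_singleton_iff]
    exact hA.2.1 a ha x (h A hA)
  intro y hy
  exact Subgroup.mem_centralizer_singleton_iff.1 (h1 hy)

theorem Zs_le_ZJ {P : Subgroup G} : Zs P ≤ Zs (J P) := fun x hx => mem_ZJ fun A hA => Zs_le_LA hA hx

/-- subgroups of `P` containing one `LA` subgroup of `P` -/
theorem LA.of_le {P P' A B : Subgroup G} (hP : P' ≤ P) (hA : LA P A) (hAP : A ≤ P') (hB : LA P' B) : LA P B := by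
  refine ⟨hB.1.trans hP, hB.2.1, fun C hC hCa => (hA.2.2 C hC hCa).trans (hB.2.2 A hAP hA.2.1)⟩

theorem LA.to {P P' A : Subgroup G} (hP : P' ≤ P) (hA : LA P A) (hAP : A ≤ P') : LA P' A :=
  ⟨hAP, hA.2.1, fun B hB hBa => hA.2.2 B (hB.trans hP) hBa⟩

theorem LA.card_eq {P A B : Subgroup G} (hA : LA P A) (hB : LA P B) : Nat.card A = Nat.card B :=
  le_antisymm (hB.2.2 A hA.1 hA.2.1) (hA.2.2 B hB.1 hB.2.1)

/-- persistence of `J` -/
theorem J_eq_of_le {P P' : Subgroup G} (hP : P' ≤ P) (h : J P ≤ P') : J P' = J P := by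
  obtain ⟨A₀, hA₀⟩ := exists_LA P
  apply le_antisymm
  · apply sSup_le
    intro B hB
    exact le_J (hA₀.of_le hP ((le_J hA₀).trans h) hB)
  · apply sSup_le
    intro A hA
    exact le_J (hA.to hP ((le_J hA).trans h))

/-- persistence of `Jt` -/
theorem Jt_eq_of_le {P P' : Subgroup G} (hP : P' ≤ P) (h : Jt P ≤ P') : Jt P' = Jt P := by
  have h1 := J_eq_of_le hP (J_le_Jt.trans h)
  apply le_antisymm
  · intro x hx
    rw [mem_Jt] at hx ⊢
    rw [h1] at hx
    exact ⟨hP hx.1, hx.2⟩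
  · intro x hx
    rw [mem_Jt, h1]
    exact ⟨h hx, (mem_Jt.1 hx).2⟩

/-- persistence of `K` -/
theorem K_eq_of_le {P P' : Subgroup G} (hP : P' ≤ P) (h : Jt P ≤ P') : K P' = K P := by
  rw [K, K, Jt_eq_of_le hP h, J_eq_of_le hP (J_le_Jt.trans h)]

theorem J_ne_bot {P : Subgroup G} (h : P ≠ ⊥) : J P ≠ ⊥ := by
  intro hJ
  obtain ⟨A₀, hA₀⟩ := exists_LA P
  have h1 : A₀ = ⊥ := by rw [eq_bot_iff, ← hJ]; exact le_J hA₀
  obtain ⟨x, hx, hx1⟩ : ∃ x ∈ P, x ≠ 1 := by
    by_contra hcon
    push Not at hcon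
    exact h (by rw [eq_bot_iff]; exact fun x hx => (Subgroup.mem_bot).2 (hcon x hx))
  have h2 := hA₀.mem hx (fun a ha => by
    rw [h1, Subgroup.mem_bot] at ha; rw [ha, one_mul, mul_one])
  rw [h1, Subgroup.mem_bot] at h2
  exact hx1 h2

theorem K_ne_bot {P : Subgroup G} (h : P ≠ ⊥) : K P ≠ ⊥ := by
  rw [K]
  by_cases h1 : D (Jt P) = ⊥
  · rw [if_pos h1]; exact J_ne_bot h
  · rw [if_neg h1]; exact h1

theorem K_le {P : Subgroup G} : K P ≤ P := by
  rw [K]
  by_cases h1 : D (Jt P) = ⊥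
  · rw [if_pos h1]; exact J_le
  · rw [if_neg h1]
    apply sSup_le
    rintro _ ⟨R, hR, rfl⟩
    refine (Subgroup.commutator_le_self R).trans (hR.1.1.trans Jt_le)

end J

end Cfsg.Agent.H215.Fun
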