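import Cfsg.Agent.H215.Line

/-!
# The subgroup `E = ⟨L_i⟩`: elements of `T` centralizing the lines lie in `E`; abelian offenders centralize the lines
-/

set_option autoImplicit false
set_option linter.unusedSectionVars false
set_option linter.unusedVariables false

namespace Cfsg.Agent.H215.Glob

open Cfsg.Agent.H263.FF.Basic Cfsg.Agent.H263.FF.Setup Cfsg.Agent.H263.FF.Odd Cfsg.Agent.H263.FF.OddNat
open Cfsg.Agent.H215.Line Cfsg.Agent.H215.Timm

variable {p : ℕ} [hp : Fact p.Prime]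
variable {X : Type*} [Group X] [Finite X] {V : Type*} [AddCommGroup V] [Finite V] [DistribMulAction X V]
variable {pt : Sylow p X → Subgroup X} {𝒟 : Set (Subgroup X)}
variable {T : Sylow p X} {r : ℕ} {A L : Fin r → Subgroup X} {z : Fin r → X}

variable (h2 : ∀ v : V, p • v = 0) (hp2 : p ≠ 2) (hf : ∀ x : X, (∀ v : V, x • v = v) → x = 1)
  (o : Out p V pt 𝒟 T r A L z)
  (hmax : ∀ H : Subgroup X, (T : Subgroup X) ≤ H → H ≤ pt T ∨ H = ⊤)
  (hcore : ∀ N : Subgroup X, N.Normal → IsPGroup p N → N = ⊥)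

section

include o hmax

theorem normal_E : (⨆ i, L i).Normal := by
  rw [← Subgroup.normalizer_eq_top_iff, eq_top_iff, ← o.sup_eq hmax]
  apply sup_le Subgroup.le_normalizer
  intro t ht
  rw [← cj_eq_iff_mem_normalizer]
  apply cj_eq_of_le
  have h1 : (⨆ i, L i) ≤ cj t⁻¹ (⨆ i, L i) := by
    apply iSup_le
    intro i
    obtain ⟨j, -, hj, -⟩ := o.cjT t ht i
    have h3 : cj t (L i) ≤ ⨆ i, L i := by rw [hj]; exact le_iSup L j
    have h4 := cj_mono t⁻¹ h3
    rwa [cj_inv_cj] at h4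
  have h5 := cj_mono t h1
  rwa [cj_cj_inv] at h5

theorem exists_mul (x : X) : ∃ e ∈ ⨆ i, L i, ∃ t ∈ T, e * t = x := by
  have := normal_E o hmax
  have h1 : x ∈ (⨆ i, L i) ⊔ (T : Subgroup X) := by rw [o.sup_eq hmax]; trivial
  exact Subgroup.mem_sup_of_normal_left.1 h1

omit hmax in
theorem comm_z {x : X} (hx : x ∈ ⨆ i, L i) (i : Fin r) : x * z i * x⁻¹ = z i := by
  have h3 : (⨆ j, L j) ≤ Subgroup.centralizer ({z i} : Set X) := iSup_le fun j l hl => by
    rw [Subgroup.mem_centralizer_singleton_iff]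
    by_cases hij : i = j
    · subst hij
      exact (o.zc i l hl).symm
    · exact (o.comm i j hij _ (o.isZ i).mem l hl).symm
  have h4 := Subgroup.mem_centralizer_singleton_iff.1 (h3 hx)
  rw [h4, mul_inv_cancel_right]

theorem perm (x : X) (i : Fin r) : ∃ j, x * z i * x⁻¹ = z j := by
  obtain ⟨e, he, t, ht, rfl⟩ := exists_mul o hmax x
  obtain ⟨j, -, -, hj⟩ := o.cjT t ht i
  refine ⟨j, ?_⟩
  have h1 := comm_z o he j
  rw [← hj] at h1
  rw [← hj, ← h1]; group

end

section

include h2 hp2 hf o hmax hcore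

/-- **an element of `T` centralizing the lines lies in `E`** -/
theorem mem_E {t : X} (ht : t ∈ T) (hq : ∀ i, ∀ v ∈ ln V A z i, t • v = v) : t ∈ ⨆ i, L i := by
  classical
  have hE := normal_E o hmax
  have hact := fun i => exists_act h2 hp2 o ht i (hq i)
  have key : ∀ s : Finset (Fin r), ∃ e ∈ ⨆ i, L i, (∀ i ∈ s, ∀ v ∈ ng V (z i), e • v = t • v) ∧
      ∀ i ∉ s, ∀ v ∈ ng V (z i), e • v = v := by
    intro s
    induction s using Finset.induction_on with
    | empty => exact ⟨1, one_mem _, fun i hi => absurd hi (Finset.notMem_empty i), fun i _ v _ => one_smul _ v⟩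
    | insert i s his ih =>
      obtain ⟨e, he, h3, h4⟩ := ih
      obtain ⟨l, hl, h5⟩ := hact i
      refine ⟨e * l, mul_mem he ((le_iSup L i) hl), ?_, ?_⟩
      · intro j hj v hv
        rcases Finset.mem_insert.1 hj with rfl | hj'
        · rw [mul_smul, ← h5 v hv]
          apply h4 _ his
          rw [h5 v hv]
          have h6 := smul_mem_ng (comm_z o ((le_iSup L j) hl) j) hv
          exact h6
        · have hij : j ≠ i := by rintro rfl; exact his hj'
          rw [mul_smul, o.ngfx j i hij hv l hl]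
          exact h3 j hj' v hv
      · intro j hj v hv
        rw [Finset.mem_insert, not_or] at hj
        rw [mul_smul, o.ngfx j i hj.1 hv l hl]
        exact h4 j hj.2 v hv
  obtain ⟨e, he, h3, -⟩ := key Finset.univ
  -- the kernel on the sum of the components
  let D : Subgroup X :=
    { carrier := {x | ∀ i, ∀ v ∈ ng V (z i), x • v = v}
      one_mem' := fun i v _ => one_smul _ v
      mul_mem' := fun {a b} ha hb i v hv => by rw [mul_smul, hb i v hv, ha i v hv]
      inv_mem' := fun {a} ha i v hv => by rw [inv_smul_eq_iff, ha i v hv] }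
  have hDE : ∀ x ∈ D, x ∈ ⨆ i, L i → x = 1 := by
    intro x hx hxE
    apply hf
    intro v
    have h4 : v ∈ fx V (⨆ i, L i) ⊔ (⨆ i, ng V (z i)) := by rw [o.decomp h2 hp2]; trivial
    obtain ⟨u, hu, n, hn, rfl⟩ := mem_sup h4
    have h5 : (⨆ i, ng V (z i)) ≤ fe V x := iSup_le fun i v hv => hx i v hv
    rw [smul_add, hu x hxE, (h5 hn : x • n = n)]
  have hDn : D.Normal := by
    constructor
    intro x hx y i v hv
    obtain ⟨j, hj⟩ := perm o hmax y⁻¹ i
    have h5 := hx j _ (smul_mem_ng hj hv)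
    rw [mul_smul, mul_smul, h5, smul_inv_smul]
  have hDp : IsPGroup p D := by
    rintro ⟨x, hx⟩
    obtain ⟨e', he', t', ht', rfl⟩ := exists_mul o hmax x
    obtain ⟨k, hk⟩ := T.isPGroup' ⟨t', ht'⟩
    have hk' : t' ^ p ^ k = 1 := by
      have := congrArg Subtype.val hk
      simpa using this
    refine ⟨k, Subtype.ext ?_⟩
    show (e' * t') ^ p ^ k = 1
    apply hDE _ (pow_mem hx _)
    rw [← QuotientGroup.eq_one_iff, QuotientGroup.mk_pow, QuotientGroup.mk_mul,
      (QuotientGroup.eq_one_iff e').2 he', one_mul, ← QuotientGroup.mk_pow, hk', QuotientGroup.mk_one]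
  have hD1 := hcore D hDn hDp
  have h4 : e⁻¹ * t ∈ D := by
    intro i v hv
    rw [mul_smul, ← h3 i (Finset.mem_univ i) v hv, inv_smul_smul]
  rw [hD1, Subgroup.mem_bot, inv_mul_eq_one] at h4
  rw [← h4]; exact he

end

section

include h2 hp2 o

/-- **abelian offenders centralize the lines** -/
theorem off_trivial {B : Subgroup X} (hBT : B ≤ T) (hB : ∀ a ∈ B, ∀ b ∈ B, a * b = b * a)
    (hoff : ∀ C ≤ B, mm V C ≤ mm V B) : ∀ b ∈ B, ∀ i, ∀ v ∈ ln V A z i, b • v = v := by
  classical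
  set Λ : AddSubgroup V := ⨆ i, ln V A z i with hΛ
  have hinv : ∀ a ∈ B, ∀ v ∈ Λ, a • v ∈ Λ := by
    intro a ha
    have h1 : Λ ≤ Λ.comap (DistribSMul.toAddMonoidHom V a) := by
      apply iSup_le
      intro i v hv
      obtain ⟨j, h3, -, h4⟩ := o.cjT a (hBT ha) i
      exact (le_iSup (fun i => ln V A z i) j) (smul_ln h2 hp2 o h3 h4 hv)
    exact fun v hv => h1 hv
  have hle : Nat.card (kr B Λ) * Nat.card Λ ≤ Nat.card B * Nat.card (Λ ⊓ fx V B : AddSubgroup V) := by
    have h1 := hoff (kr B Λ) kr_le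
    have h3 : Λ ⊔ fx V B ≤ fx V (kr B Λ) :=
      sup_le (fun v hv x hx => hx.2 v hv) (fx_anti kr_le)
    have h4 := card_sup_inf Λ (fx V B)
    have h5 := card_le h3
    rw [mm, mm] at h1
    have h6 : 0 < Nat.card (fx V B) := Nat.card_pos
    refine Nat.le_of_mul_le_mul_right ?_ h6
    calc Nat.card (kr B Λ) * Nat.card Λ * Nat.card (fx V B)
        = Nat.card (kr B Λ) * (Nat.card (Λ ⊔ fx V B : AddSubgroup V) * Nat.card (Λ ⊓ fx V B : AddSubgroup V)) := by
          rw [h4, mul_assoc]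
      _ ≤ Nat.card (kr B Λ) * (Nat.card (fx V (kr B Λ)) * Nat.card (Λ ⊓ fx V B : AddSubgroup V)) :=
          Nat.mul_le_mul_left _ (Nat.mul_le_mul_right _ h5)
      _ = (Nat.card (kr B Λ) * Nat.card (fx V (kr B Λ))) * Nat.card (Λ ⊓ fx V B : AddSubgroup V) := by ring
      _ ≤ (Nat.card B * Nat.card (fx V B)) * Nat.card (Λ ⊓ fx V B : AddSubgroup V) :=
          Nat.mul_le_mul_right _ h1
      _ = _ := by ring
  have hall : ∀ a ∈ B, ∀ v ∈ Λ, a • v = v := by
    by_contra hcon
    push Not at hcon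
    obtain ⟨a, ha, v, hv, hav⟩ := hcon
    obtain ⟨C, hCB, hC1, ⟨c, hc, w, hw, hcw⟩, -, hq⟩ := timm hB (T.isPGroup'.to_le hBT) h2 hinv hle ⟨a, ha, v, hv, hav⟩
    apply hcw
    have h3 := trivial_of_quad h2 hp2 o (hBT (hCB hc)) (fun i v hv => hq c hc c hc v ((le_iSup (fun i => ln V A z i) i) hv))
    have h4 : Λ ≤ fe V c := iSup_le fun i v hv => h3 i v hv
    exact h4 hw
  intro b hb i v hv
  exact hall b hb v ((le_iSup (fun i => ln V A z i) i) hv)

end

end Cfsg.Agent.H215.Glob
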