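import Cfsg.Agent.H263.FF.OddNat
import Cfsg.Agent.H215.Timm

/-!
# Elements of `T` on the lines `C_{[V, z_i]}(A_i)`
-/

set_option autoImplicit false
set_option linter.unusedSectionVars false
set_option linter.unusedVariables false

namespace Cfsg.Agent.H215.Line

open Cfsg.Agent.H263.FF.Basic Cfsg.Agent.H263.FF.Setup Cfsg.Agent.H263.FF.Odd Cfsg.Agent.H263.FF.OddNat

/-! ### a lemma on fields -/

theorem field_lemma {F : Type*} [Field F] (h2 : (2 : F) ≠ 0) (τ α c : F → F)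
    (hadd : ∀ x y, τ (x + y) = τ x + τ y) (hinj : ∀ x, τ x = 0 → x = 0)
    (hmul : ∀ b y, τ (b * y) = α b * c y) (hq : ∀ x, τ (τ x - x) = τ x - x) : ∀ x, τ x = x := by
  by_contra hcon
  push Not at hcon
  obtain ⟨x, hx⟩ := hcon
  have hs : ∀ x y, τ (x - y) = τ x - τ y := by
    intro x y
    have := hadd (x - y) y
    rw [sub_add_cancel] at this
    rw [this]; ring
  set x₀ := τ x - x with hx₀
  have hx₀0 : x₀ ≠ 0 := sub_ne_zero.2 hx
  have hτx₀ : τ x₀ = x₀ := hq x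
  have h1 : τ 1 ≠ 0 := fun e => one_ne_zero (hinj 1 e)
  have hm : ∀ b y, τ (b * y) * τ 1 = τ b * τ y := by
    intro b y
    have e1 := hmul b 1
    have e2 := hmul 1 y
    have e3 := hmul 1 1
    rw [mul_one] at e1 e3
    rw [one_mul] at e2
    rw [hmul, e1, e2, e3]; ring
  set σ : F → F := fun l => τ l * (τ 1)⁻¹ with hσ
  have hσ' : ∀ l, τ l = σ l * τ 1 := fun l => by rw [hσ]; field_simp
  have hσm : ∀ b y, σ (b * y) = σ b * σ y := by
    intro b y
    have := hm b y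
    rw [hσ] at *
    field_simp
    linear_combination this
  have hσs : ∀ b y, σ (b - y) = σ b - σ y := by
    intro b y
    simp only [hσ, hs]; ring
  have hσa : ∀ b y, σ (b + y) = σ b + σ y := by
    intro b y
    simp only [hσ, hadd]; ring
  have hσx : ∀ l, τ (l * x₀) = σ l * x₀ := by
    intro l
    have := hm l x₀
    rw [hτx₀, hσ' l] at this
    have h3 : (τ (l * x₀) - σ l * x₀) * τ 1 = 0 := by linear_combination this
    rcases mul_eq_zero.1 h3 with h4 | h4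
    · exact sub_eq_zero.1 h4
    · exact absurd h4 h1
  have hfix : ∀ l, σ (σ l - l) = σ l - l := by
    intro l
    have h3 := hq (l * x₀)
    rw [hσx, ← sub_mul, hσx] at h3
    exact mul_right_cancel₀ hx₀0 h3
  have hσid : ∀ l, σ l = l := by
    intro l
    set c₀ := σ l - l with hc
    have hc1 : σ l = l + c₀ := by rw [hc]; ring
    have hc2 : σ c₀ = c₀ := hfix l
    have h3 := hfix (l * l)
    rw [hσm, hc1] at h3
    have e : (l + c₀) * (l + c₀) - l * l = c₀ * l + c₀ * l + c₀ * c₀ := by ring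
    rw [e, hσa, hσa, hσm, hσm, hc1, hc2] at h3
    have h4 : 2 * (c₀ * c₀) = 0 := by linear_combination h3
    rcases mul_eq_zero.1 h4 with h5 | h5
    · exact absurd h5 h2
    · have h6 : c₀ = 0 := by simpa using h5
      rw [hc1, h6, add_zero]
  have h3 := hσx 1
  rw [one_mul, hσid, hτx₀] at h3
  have h4 := hσ' x₀
  rw [hσid, hτx₀] at h4
  have h5 : τ 1 = 1 := by
    have : x₀ * (τ 1 - 1) = 0 := by linear_combination -h4
    rcases mul_eq_zero.1 this with h6 | h6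
    · exact absurd h6 hx₀0
    · exact sub_eq_zero.1 h6
  have h6 := hσ' x
  rw [hσid, h5, mul_one] at h6
  exact hx h6

variable {p : ℕ} [hp : Fact p.Prime]
variable {X : Type*} [Group X] [Finite X] {V : Type*} [AddCommGroup V] [Finite V] [DistribMulAction X V]
variable {pt : Sylow p X → Subgroup X} {𝒟 : Set (Subgroup X)}
variable {T : Sylow p X} {r : ℕ} {A L : Fin r → Subgroup X} {z : Fin r → X}

/-- the line -/
def ln (V : Type*) [AddCommGroup V] [DistribMulAction X V] (A : Fin r → Subgroup X) (z : Fin r → X) (i : Fin r) :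
    AddSubgroup V := fx V (A i) ⊓ ng V (z i)

theorem smul_mem_ng {t a b : X} (h : t * a * t⁻¹ = b) {v : V} (hv : v ∈ ng V a) : t • v ∈ ng V b := by
  rw [mem_ng, ← h, mul_smul, mul_smul, inv_smul_smul, mem_ng.1 hv, smul_neg]

section

variable (h2 : ∀ v : V, p • v = 0) (hp2 : p ≠ 2) (o : Out p V pt 𝒟 T r A L z)
include h2 hp2 o

theorem ng_disj {i j : Fin r} (hij : i ≠ j) {v : V} (hv : v ∈ ng V (z i)) (hv' : v ∈ ng V (z j)) : v = 0 := by
  exact (o.isZ j).inf h2 hp2 (o.ngfx i j hij hv) hv'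

theorem eq_zero_of_double {v : V} (h : v + v = 0) : v = 0 := by
  have h3 : v + v ∈ (⊥ : AddSubgroup V) := by rw [h]; exact zero_mem _
  exact (AddSubgroup.mem_bot).1 (half_mem h2 hp2 h3)

theorem exists_ne (i : Fin r) : ∃ v ∈ ln V A z i, v ≠ 0 := by
  obtain ⟨F, hF, hFt, hcard, ρ, e, hn, hl⟩ := o.nat i
  refine ⟨(e.symm ![1, 0] : ng V (z i)), ⟨(hl (e.symm ![1, 0])).2 ?_, (e.symm ![1, 0]).2⟩, ?_⟩
  · rw [AddEquiv.apply_symm_apply]; rfl
  · intro h
    have h3 : (e.symm ![1, 0] : ng V (z i)) = 0 := Subtype.ext h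
    have h4 : (![1, 0] : Fin 2 → F) = 0 := by rw [← e.apply_symm_apply ![1, 0], h3, map_zero]
    exact one_ne_zero (congrFun h4 0)

theorem inj_z {i j : Fin r} (h : z i = z j) : i = j := by
  by_contra hij
  obtain ⟨v, hv, hv0⟩ := exists_ne h2 hp2 o i
  exact hv0 (ng_disj h2 hp2 o hij hv.2 (by rw [← h]; exact hv.2))

theorem smul_ln {t : X} {i j : Fin r} (hA : cj t (A i) = A j) (hz : t * z i * t⁻¹ = z j) {v : V} (hv : v ∈ ln V A z i) :
    t • v ∈ ln V A z j := by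
  refine ⟨?_, smul_mem_ng hz hv.2⟩
  rw [← hA]; exact smul_mem_fx_cj hv.1

/-- an element which is quadratic on the lines fixes the lines -/
theorem fix_of_quad {t : X} (ht : t ∈ T) (hq : ∀ i, ∀ v ∈ ln V A z i, t • (t • v - v) = t • v - v) (i : Fin r) :
    cj t (A i) = A i ∧ cj t (L i) = L i ∧ t * z i * t⁻¹ = z i := by
  obtain ⟨j, h1, h3, h4⟩ := o.cjT t ht i
  by_cases hij : i = j
  · subst hij; exact ⟨h1, h3, h4⟩
  exfalso
  obtain ⟨v, hv, hv0⟩ := exists_ne h2 hp2 o i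
  obtain ⟨k, h5, h6, h7⟩ := o.cjT t ht j
  have hkj : k ≠ j := by
    rintro rfl
    apply hij
    apply o.injA
    exact cj_inj (h1.trans h5.symm)
  have htv : t • v ∈ ng V (z j) := smul_mem_ng h4 hv.2
  have httv : t • (t • v) ∈ ng V (z k) := smul_mem_ng h7 htv
  have e1 : z j • v = v := o.ngfx i j hij hv.2 _ (o.isZ j).mem
  have e2 : z j • (t • (t • v)) = t • (t • v) := o.ngfx k j hkj httv _ (o.isZ j).mem
  have e3 : z j • (t • v) = -(t • v) := mem_ng.1 htv
  have e4 := hq i v hv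
  rw [smul_sub, sub_eq_iff_eq_add] at e4
  have e5 := congrArg (fun w => z j • w) e4
  simp only [smul_sub, smul_add] at e5
  rw [e1, e2, e3] at e5
  rw [e4] at e5
  have e6 : (t • v + t • v) + (t • v + t • v) = 0 := by
    have : (t • v - v + t • v) - (-(t • v) - v + -(t • v)) = 0 := sub_eq_zero.2 e5
    rw [← this]; abel
  have e7 := eq_zero_of_double h2 hp2 o (eq_zero_of_double h2 hp2 o e6)
  exact hv0 ((smul_eq_zero_iff_eq t).1 e7)

/-- an element which fixes the line pointwise fixes its index -/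
theorem fix_of_trivial {t : X} (ht : t ∈ T) {i : Fin r} (hq : ∀ v ∈ ln V A z i, t • v = v) :
    cj t (A i) = A i ∧ cj t (L i) = L i ∧ t * z i * t⁻¹ = z i := by
  obtain ⟨j, h1, h3, h4⟩ := o.cjT t ht i
  by_cases hij : i = j
  · subst hij; exact ⟨h1, h3, h4⟩
  exfalso
  obtain ⟨v, hv, hv0⟩ := exists_ne h2 hp2 o i
  apply hv0
  apply ng_disj h2 hp2 o hij hv.2
  rw [← hq v hv]
  exact smul_mem_ng h4 hv.2

end

section Nat

variable {F : Type} [Field F] [Fintype F] {i : Fin r} {ρ : ↥(L i) ≃* Matrix.SpecialLinearGroup (Fin 2) F}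
  {e : ↥(ng V (z i)) ≃+ (Fin 2 → F)}

/-- `2 ≠ 0` in `F` -/
theorem char_F (h2 : ∀ v : V, p • v = 0) (e : ↥(ng V (z i)) ≃+ (Fin 2 → F)) : (p : F) = 0 := by
  have h1 : p • (e.symm ![1, 0] : ↥(ng V (z i))) = 0 := Subtype.ext (h2 _)
  have h3 : p • (![1, 0] : Fin 2 → F) = 0 := by
    rw [← e.apply_symm_apply ![1, 0], ← map_nsmul, h1, map_zero]
  have h4 := congrFun h3 0
  simpa using h4

theorem two_ne (h2 : ∀ v : V, p • v = 0) (hp2 : p ≠ 2) (e : ↥(ng V (z i)) ≃+ (Fin 2 → F)) : (2 : F) ≠ 0 := by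
  intro h
  have h1 := char_F h2 e
  obtain ⟨k, hk⟩ := hp.out.odd_of_ne_two hp2
  rw [hk] at h1
  push_cast at h1
  rw [h, zero_mul, zero_add] at h1
  exact one_ne_zero h1

variable (h2 : ∀ v : V, p • v = 0) (hp2 : p ≠ 2) (o : Out p V pt 𝒟 T r A L z)
  (hn : IsNat F (L i) (ng V (z i)) ρ e) (hl : ∀ m : ↥(ng V (z i)), (m : V) ∈ fx V (A i) ↔ e m 1 = 0)
include h2 hp2 o hn hl

/-- the matrix of an element of `A i` -/
theorem mat_A {a : X} (ha : a ∈ A i) : (ρ ⟨a, o.AL i ha⟩).1 0 0 = 1 ∧ (ρ ⟨a, o.AL i ha⟩).1 1 0 = 0 ∧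
    (ρ ⟨a, o.AL i ha⟩).1 1 1 = 1 := by
  have h1 : ((e.symm ![1, 0] : ng V (z i)) : V) ∈ fx V (A i) := by
    rw [hl, AddEquiv.apply_symm_apply]; rfl
  have h3 := hn.act ⟨a, o.AL i ha⟩ (e.symm ![1, 0]) (e.symm ![1, 0]) (h1 a ha).symm
  rw [AddEquiv.apply_symm_apply] at h3
  have h4 := congrFun h3 0
  have h5 := congrFun h3 1
  simp [Matrix.mulVec, dotProduct, Fin.sum_univ_two] at h4 h5
  have hdet := (ρ ⟨a, o.AL i ha⟩).2
  rw [Matrix.det_fin_two] at hdet
  refine ⟨h4.symm, h5.symm, ?_⟩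
  rw [← h4, ← h5] at hdet
  simpa using hdet

theorem exists_A (hcard : Fintype.card F = Nat.card (A i)) (b : F) : ∃ a, ∃ ha : a ∈ A i, (ρ ⟨a, o.AL i ha⟩).1 0 1 = b := by
  classical
  let f : A i → F := fun a => (ρ ⟨a, o.AL i a.2⟩).1 0 1
  have hf : Function.Injective f := by
    intro a a' haa
    obtain ⟨h1, h3, h4⟩ := mat_A h2 hp2 o hn hl a.2
    obtain ⟨h5, h6, h7⟩ := mat_A h2 hp2 o hn hl a'.2
    have h8 : ρ ⟨a, o.AL i a.2⟩ = ρ ⟨a', o.AL i a'.2⟩ := by
      apply Subtype.ext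
      ext x y
      fin_cases x <;> fin_cases y
      · exact h1.trans h5.symm
      · exact haa
      · exact h3.trans h6.symm
      · exact h4.trans h7.symm
    have h9 := ρ.injective h8
    exact Subtype.ext (congrArg (fun y : L i => (y : X)) h9)
  have _ : Fintype (A i) := Fintype.ofFinite _
  have hb : Function.Bijective f := (Fintype.bijective_iff_injective_and_card f).2
    ⟨hf, by rw [hcard, Nat.card_eq_fintype_card]⟩
  obtain ⟨a, ha⟩ := hb.2 b
  exact ⟨a, a.2, ha⟩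

/-- the fundamental relation -/
theorem rel {t : X} (hA : cj t (A i) = A i) (hz : t * z i * t⁻¹ = z i) {a : X} (ha : a ∈ A i) (w tw : ng V (z i))
    (htw : (tw : V) = t • (w : V)) (hta : t * a * t⁻¹ ∈ A i) (m : ng V (z i))
    (hm : (m : V) = t • ((e.symm ![(ρ ⟨a, o.AL i ha⟩).1 0 1 * e w 1, 0] : ng V (z i)) : V)) :
    e m 0 = (ρ ⟨t * a * t⁻¹, o.AL i hta⟩).1 0 1 * e tw 1 := by
  obtain ⟨h1, h3, h4⟩ := mat_A h2 hp2 o hn hl ha
  obtain ⟨h5, h6, h7⟩ := mat_A h2 hp2 o hn hl hta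
  -- `a w - w`
  have haw : a • (w : V) ∈ ng V (z i) := hn.inv a (o.AL i ha) _ w.2
  have e1 := hn.act ⟨a, o.AL i ha⟩ w ⟨a • (w : V), haw⟩ rfl
  have e2 : (⟨a • (w : V), haw⟩ - w : ng V (z i)) = e.symm ![(ρ ⟨a, o.AL i ha⟩).1 0 1 * e w 1, 0] := by
    apply e.injective
    rw [map_sub, e1, AddEquiv.apply_symm_apply]
    ext x
    fin_cases x <;> simp [h1, h3, h4]
  have e3 : (m : V) = (t * a * t⁻¹) • (tw : V) - (tw : V) := by
    rw [hm, ← e2, htw]
    show t • (a • (w : V) - (w : V)) = _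
    rw [smul_sub, mul_smul, inv_smul_smul, mul_smul]
  have hatw : (t * a * t⁻¹) • (tw : V) ∈ ng V (z i) := hn.inv _ (o.AL i hta) _ tw.2
  have e4 := hn.act ⟨_, o.AL i hta⟩ tw ⟨_, hatw⟩ rfl
  have e5 : m = ⟨_, hatw⟩ - tw := Subtype.ext e3
  rw [e5, map_sub, e4]
  simp [h5, h6, h7]

end Nat

section

variable (h2 : ∀ v : V, p • v = 0) (hp2 : p ≠ 2) (o : Out p V pt 𝒟 T r A L z)
include h2 hp2 o

/-- **an element of `T` which is quadratic on the lines centralizes the lines** -/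
theorem trivial_of_quad {t : X} (ht : t ∈ T) (hq : ∀ i, ∀ v ∈ ln V A z i, t • (t • v - v) = t • v - v) (i : Fin r) :
    ∀ v ∈ ln V A z i, t • v = v := by
  obtain ⟨hA, hL, hz⟩ := fix_of_quad h2 hp2 o ht hq i
  obtain ⟨F, hF, hFt, hcard, ρ, e, hn, hl⟩ := o.nat i
  have hN : ∀ m : ng V (z i), t • (m : V) ∈ ng V (z i) := fun m => smul_mem_ng hz m.2
  let tt : ng V (z i) → ng V (z i) := fun m => ⟨t • (m : V), hN m⟩
  have htadd : ∀ m m', tt (m + m') = tt m + tt m' := fun m m' => Subtype.ext (smul_add _ _ _)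
  have htsub : ∀ m m', tt (m - m') = tt m - tt m' := fun m m' => Subtype.ext (smul_sub _ _ _)
  have hlin : ∀ x : F, ((e.symm ![x, 0] : ng V (z i)) : V) ∈ ln V A z i := fun x =>
    ⟨(hl (e.symm ![x, 0])).2 (by rw [AddEquiv.apply_symm_apply]; rfl), (e.symm ![x, 0]).2⟩
  have htl : ∀ x : F, e (tt (e.symm ![x, 0])) 1 = 0 := by
    intro x
    rw [← hl]
    exact (smul_ln h2 hp2 o hA hz (hlin x)).1
  have htl' : ∀ x : F, tt (e.symm ![x, 0]) = e.symm ![e (tt (e.symm ![x, 0])) 0, 0] := by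
    intro x
    apply e.injective
    rw [AddEquiv.apply_symm_apply]
    ext y
    fin_cases y
    · rfl
    · exact htl x
  have hA' : ∀ a ∈ A i, t * a * t⁻¹ ∈ A i := fun a ha => by rw [← hA]; exact mem_cj_of ha
  choose a ha hab using fun b : F => exists_A h2 hp2 o hn hl hcard b
  have key := field_lemma (two_ne h2 hp2 e) (fun x => e (tt (e.symm ![x, 0])) 0)
    (fun b => (ρ ⟨t * a b * t⁻¹, o.AL i (hA' _ (ha b))⟩).1 0 1) (fun y => e (tt (e.symm ![0, y])) 1) ?_ ?_ ?_ ?_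
  · intro v hv
    have e1 : (⟨v, hv.2⟩ : ng V (z i)) = e.symm ![e ⟨v, hv.2⟩ 0, 0] := by
      apply e.injective
      rw [AddEquiv.apply_symm_apply]
      ext y
      fin_cases y
      · rfl
      · exact (hl ⟨v, hv.2⟩).1 hv.1
    have e2 : tt ⟨v, hv.2⟩ = ⟨v, hv.2⟩ := by
      rw [e1, htl', key]
    exact congrArg Subtype.val e2
  · intro x y
    have e1 : (e.symm ![x + y, 0] : ng V (z i)) = e.symm ![x, 0] + e.symm ![y, 0] := by
      rw [← map_add]; congr 1; ext k; fin_cases k <;> simp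
    show e (tt (e.symm ![x + y, 0])) 0 = e (tt (e.symm ![x, 0])) 0 + e (tt (e.symm ![y, 0])) 0
    rw [e1, htadd, map_add]; rfl
  · intro x hx
    have e1 := htl' x
    have hx' : e (tt (e.symm ![x, 0])) 0 = 0 := hx
    rw [hx'] at e1
    have e2 : (![0, 0] : Fin 2 → F) = 0 := by ext k; fin_cases k <;> rfl
    rw [e2, map_zero] at e1
    have e3 : t • ((e.symm ![x, 0] : ng V (z i)) : V) = 0 := congrArg Subtype.val e1
    have e4 : (e.symm ![x, 0] : ng V (z i)) = 0 := Subtype.ext ((smul_eq_zero_iff_eq t).1 e3)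
    have e5 : (![x, 0] : Fin 2 → F) = 0 := by rw [← e.apply_symm_apply ![x, 0], e4, map_zero]
    exact congrFun e5 0
  · intro b y
    have h3 := rel h2 hp2 o hn hl hA hz (ha b) (e.symm ![0, y]) (tt (e.symm ![0, y])) rfl (hA' _ (ha b))
      (tt (e.symm ![(ρ ⟨a b, o.AL i (ha b)⟩).1 0 1 * e (e.symm ![0, y]) 1, 0])) rfl
    rw [hab, AddEquiv.apply_symm_apply] at h3
    exact h3
  · intro x
    have e1 := hq i _ (hlin x)
    have e2 : tt (tt (e.symm ![x, 0]) - e.symm ![x, 0]) = tt (e.symm ![x, 0]) - e.symm ![x, 0] := Subtype.ext e1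
    have e3 : tt (e.symm ![x, 0]) - e.symm ![x, 0] = e.symm ![e (tt (e.symm ![x, 0])) 0 - x, 0] := by
      rw [htl' x, ← map_sub, AddEquiv.apply_symm_apply]
      congr 1; ext k; fin_cases k <;> simp
    show e (tt (e.symm ![e (tt (e.symm ![x, 0])) 0 - x, 0])) 0 = e (tt (e.symm ![x, 0])) 0 - x
    rw [← e3, e2, map_sub, Pi.sub_apply, AddEquiv.apply_symm_apply]
    rfl

/-- **an element of `T` which centralizes the line acts on `[V, z_i]` like an element of `L_i`** -/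
theorem exists_act {t : X} (ht : t ∈ T) (i : Fin r) (hq : ∀ v ∈ ln V A z i, t • v = v) :
    ∃ l ∈ L i, ∀ v ∈ ng V (z i), t • v = l • v := by
  classical
  obtain ⟨hA, hL, hz⟩ := fix_of_trivial h2 hp2 o ht hq
  obtain ⟨F, hF, hFt, hcard, ρ, e, hn, hl⟩ := o.nat i
  have hN : ∀ m : ng V (z i), t • (m : V) ∈ ng V (z i) := fun m => smul_mem_ng hz m.2
  let tt : ng V (z i) → ng V (z i) := fun m => ⟨t • (m : V), hN m⟩
  have htadd : ∀ m m', tt (m + m') = tt m + tt m' := fun m m' => Subtype.ext (smul_add _ _ _)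
  have hlin : ∀ x : F, ((e.symm ![x, 0] : ng V (z i)) : V) ∈ ln V A z i := fun x =>
    ⟨(hl (e.symm ![x, 0])).2 (by rw [AddEquiv.apply_symm_apply]; rfl), (e.symm ![x, 0]).2⟩
  have htl : ∀ x : F, tt (e.symm ![x, 0]) = e.symm ![x, 0] := fun x => Subtype.ext (hq _ (hlin x))
  have hA' : ∀ a ∈ A i, t * a * t⁻¹ ∈ A i := fun a ha => by rw [← hA]; exact mem_cj_of ha
  obtain ⟨a, ha, hab⟩ := exists_A h2 hp2 o hn hl hcard 1
  set α := (ρ ⟨t * a * t⁻¹, o.AL i (hA' _ ha)⟩).1 0 1 with hα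
  have hrel : ∀ w, e w 1 = α * e (tt w) 1 := by
    intro w
    have h3 := rel h2 hp2 o hn hl hA hz ha w (tt w) rfl (hA' _ ha)
      (tt (e.symm ![(ρ ⟨a, o.AL i ha⟩).1 0 1 * e w 1, 0])) rfl
    rw [htl, AddEquiv.apply_symm_apply, hab, one_mul] at h3
    exact h3
  -- powers of `t`
  have hpow : ∀ k : ℕ, ∀ w w' : ng V (z i), (w' : V) = t ^ k • (w : V) → e w 1 = α ^ k * e w' 1 := by
    intro k
    induction k with
    | zero =>
      intro w w' hw
      rw [pow_zero, one_smul] at hw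
      rw [Subtype.ext hw, pow_zero, one_mul]
    | succ k ih =>
      intro w w' hw
      have hm : t ^ k • (w : V) ∈ ng V (z i) := by
        have : ∀ k : ℕ, t ^ k • (w : V) ∈ ng V (z i) := by
          intro k
          induction k with
          | zero => rw [pow_zero, one_smul]; exact w.2
          | succ k ih => rw [pow_succ', mul_smul]; exact hN ⟨_, ih⟩
        exact this k
      have e1 : tt ⟨_, hm⟩ = w' := Subtype.ext (by rw [hw, pow_succ', mul_smul])
      rw [ih w ⟨_, hm⟩ rfl, hrel ⟨_, hm⟩, e1, pow_succ, mul_assoc]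
  have hα1 : α = 1 := by
    obtain ⟨k, hk⟩ := T.isPGroup' ⟨t, ht⟩
    have hk' : t ^ p ^ k = 1 := by
      have := congrArg Subtype.val hk
      simpa using this
    have h3 := hpow (p ^ k) (e.symm ![0, 1]) (e.symm ![0, 1]) (by rw [hk', one_smul])
    rw [AddEquiv.apply_symm_apply] at h3
    have h4 : α ^ p ^ k = 1 := by simpa using h3.symm
    have _ : CharP F p := (CharP.charP_iff_prime_eq_zero hp.out).2 (char_F h2 e)
    have h5 : (α - 1) ^ p ^ k = 0 := by
      rw [sub_pow_char_pow, h4, one_pow, sub_self]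
    have h6 := pow_eq_zero_iff (pow_ne_zero k hp.out.ne_zero) |>.1 h5
    exact sub_eq_zero.1 h6
  have hsec : ∀ w, e (tt w) 1 = e w 1 := by
    intro w
    rw [hrel w, hα1, one_mul]
  -- the opposite transvection
  let U : Matrix.SpecialLinearGroup (Fin 2) F := ⟨!![1, 0; 1, 1], by rw [Matrix.det_fin_two_of]; ring⟩
  let u : L i := ρ.symm U
  have hρu : ρ u = U := ρ.apply_symm_apply U
  have hu' : t * (u : X) * t⁻¹ ∈ L i := by
    have := mem_cj_of (g := t) u.2
    rwa [hL] at this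
  set N := (ρ ⟨t * (u : X) * t⁻¹, hu'⟩).1 with hNdef
  have hG : ∀ x : F, e (tt (e.symm ![0, x])) 0 = (N 0 0 - 1) * x := by
    intro x
    have h3 : (u : X) • ((e.symm ![x, 0] : ng V (z i)) : V) ∈ ng V (z i) := hn.inv _ u.2 _ (e.symm ![x, 0]).2
    have h4 := hn.act u (e.symm ![x, 0]) ⟨_, h3⟩ rfl
    rw [hρu, AddEquiv.apply_symm_apply] at h4
    have h5 : (⟨_, h3⟩ : ng V (z i)) = e.symm ![x, 0] + e.symm ![0, x] := by
      apply e.injective
      rw [h4, ← map_add, AddEquiv.apply_symm_apply]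
      ext k
      fin_cases k <;> simp [U, Matrix.mulVec, dotProduct, Fin.sum_univ_two]
    have h6 := hn.act ⟨t * (u : X) * t⁻¹, hu'⟩ (e.symm ![x, 0]) (tt (e.symm ![x, 0] + e.symm ![0, x])) (by
      rw [← h5]
      show t • ((u : X) • ((e.symm ![x, 0] : ng V (z i)) : V)) = (t * (u : X) * t⁻¹) • ((e.symm ![x, 0] : ng V (z i)) : V)
      have h7 : t⁻¹ • ((e.symm ![x, 0] : ng V (z i)) : V) = ((e.symm ![x, 0] : ng V (z i)) : V) := by
        rw [inv_smul_eq_iff]; exact (hq _ (hlin x)).symm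
      rw [mul_smul, h7, mul_smul])
    rw [htadd, htl, map_add, AddEquiv.apply_symm_apply] at h6
    have h7 := congrFun h6 0
    simp [Matrix.mulVec, dotProduct, Fin.sum_univ_two] at h7
    rw [← hNdef] at h7
    linear_combination h7
  let W : Matrix.SpecialLinearGroup (Fin 2) F := ⟨!![1, N 0 0 - 1; 0, 1], by rw [Matrix.det_fin_two_of]; ring⟩
  let l : L i := ρ.symm W
  have hρl : ρ l = W := ρ.apply_symm_apply W
  refine ⟨l, l.2, fun v hv => ?_⟩
  have hlv : (l : X) • v ∈ ng V (z i) := hn.inv _ l.2 _ hv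
  have h3 := hn.act l ⟨v, hv⟩ ⟨_, hlv⟩ rfl
  have h4 : tt ⟨v, hv⟩ = ⟨_, hlv⟩ := by
    apply e.injective
    rw [h3, hρl]
    have e1 : (⟨v, hv⟩ : ng V (z i)) = e.symm ![e ⟨v, hv⟩ 0, 0] + e.symm ![0, e ⟨v, hv⟩ 1] := by
      apply e.injective
      rw [← map_add, AddEquiv.apply_symm_apply]
      ext k
      fin_cases k <;> simp
    ext k
    fin_cases k
    · show e (tt ⟨v, hv⟩) 0 = _
      conv_lhs => rw [e1, htadd, htl, map_add, Pi.add_apply, hG, AddEquiv.apply_symm_apply]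
      simp [W, Matrix.mulVec, dotProduct, Fin.sum_univ_two]
    · show e (tt ⟨v, hv⟩) 1 = _
      rw [hsec]
      simp [W, Matrix.mulVec, dotProduct, Fin.sum_univ_two]
  exact congrArg Subtype.val h4

end

end Cfsg.Agent.H215.Line
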