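import Cfsg.Agent.H215.Setup
import Cfsg.Agent.H263.FF.OddMain

/-!
# The minimal failure: `G / C_G(V) ≅ SL₂(q)`
-/

set_option autoImplicit false
set_option linter.unusedSectionVars false
set_option linter.unusedVariables false

open Cfsg

namespace Cfsg.Agent.H215.Off

open Cfsg.Agent.H215.Fun Cfsg.Agent.H215.Act Cfsg.Agent.H215.Setup Cfsg.Agent.H215.Setup.Min
open Cfsg.Agent.H263.FF.Basic Cfsg.Agent.H263.FF.Setup Cfsg.Agent.H263.FF.PMin Cfsg.Agent.H263.FF.OddNat
open Cfsg.Agent.H215.Line Cfsg.Agent.H215.Timm Cfsg.Agent.H215.Glob Cfsg.Agent.H215.RankOne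
open scoped Pointwise

/-- `|π(Y)| |Y ∩ ker π| = |Y|` -/
theorem card_map_mul {G X : Type*} [Group G] [Group X] [Finite G] (π : G →* X) (Y : Subgroup G) :
    Nat.card (Y.map π) * Nat.card (Y ⊓ π.ker : Subgroup G) = Nat.card Y := by
  have h1 := Subgroup.card_eq_card_quotient_mul_card_subgroup (π.comp Y.subtype).ker
  have h2 : Nat.card (Y ⧸ (π.comp Y.subtype).ker) = Nat.card (Y.map π) := by
    rw [Nat.card_congr (QuotientGroup.quotientKerEquivRange (π.comp Y.subtype)).toEquiv]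
    rw [MonoidHom.range_comp, Subgroup.range_subtype]
  have h3 : Nat.card (π.comp Y.subtype).ker = Nat.card (Y ⊓ π.ker : Subgroup G) := by
    refine Nat.card_congr ⟨fun x => ⟨x.1.1, x.1.2, x.2⟩, fun x => ⟨⟨x.1, x.2.1⟩, x.2.2⟩, fun _ => rfl, fun _ => rfl⟩
  rw [← h2, ← h3, h1]

theorem coatom_conj {X : Type*} [Group X] {M : Subgroup X} (hM : IsCoatom M) (g : X) : IsCoatom (cj g M) := by
  constructor
  · intro e
    apply hM.1
    rw [← cj_inv_cj g M, e, cj_top]
  · intro K hK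
    have h1 : M < cj g⁻¹ K := by
      rw [← cj_inv_cj g M]
      exact lt_of_le_of_ne (cj_mono _ hK.le) fun e => hK.ne (cj_inj e)
    have h2 := hM.2 _ h1
    rw [← cj_cj_inv g K, h2, cj_top]

/-- an elementary abelian offender inside an abelian one -/
theorem exists_EA {p : ℕ} [hp : Fact p.Prime] {X : Type*} [Group X] [Finite X] {V : Type*} [AddCommGroup V] [Finite V]
    [DistribMulAction X V] (h2 : ∀ v : V, p • v = 0) (hf : ∀ x : X, (∀ v : V, x • v = v) → x = 1) {A : Subgroup X}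
    (hA : ∀ a ∈ A, ∀ b ∈ A, a * b = b * a) (hAp : IsPGroup p A) (hA1 : A ≠ ⊥) (hoff : mm V (⊥ : Subgroup X) ≤ mm V A) :
    ∃ B : Subgroup X, EA p B ∧ B ≠ ⊥ ∧ Nat.card V ≤ mm V B := by
  have hk : kr A (⊤ : AddSubgroup V) = ⊥ := by
    rw [eq_bot_iff]
    intro x hx
    rw [Subgroup.mem_bot]
    exact hf x fun v => hx.2 v trivial
  have e1 : ∀ B : Subgroup X, ((⊤ : AddSubgroup V) ⊓ fx V B : AddSubgroup V) = fx V B := fun B => top_inf_eq _
  obtain ⟨B, hBA, -, ⟨b, hb, v, -, hbv⟩, hcard, hq⟩ := timm (L := (⊤ : AddSubgroup V)) hA hAp h2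
    (fun _ _ _ _ => trivial) (by
      rw [hk, e1, card_top, Subgroup.card_bot, one_mul]
      rw [mm_bot] at hoff
      exact hoff) (by
      by_contra hcon
      push Not at hcon
      apply hA1
      rw [eq_bot_iff]
      intro a ha
      rw [Subgroup.mem_bot]
      exact hf a fun v => hcon a ha v trivial)
  refine ⟨B, ⟨fun a ha b hb => hA a (hBA ha) b (hBA hb), ?_⟩, ?_, ?_⟩
  · intro a ha
    apply hf
    intro v
    have key : ∀ k : ℕ, a ^ k • v = v + k • (a • v - v) := by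
      intro k
      induction k with
      | zero => rw [pow_zero, one_smul, zero_smul, add_zero]
      | succ k ih =>
        have h3 : a • (k • (a • v - v)) = k • (a • v - v) := by
          rw [smul_comm, hq a ha a ha v trivial]
        rw [pow_succ', mul_smul, ih, smul_add, h3, succ_nsmul]
        abel
    rw [key, h2, add_zero]
  · rintro rfl
    rw [Subgroup.mem_bot] at hb
    rw [hb, one_smul] at hbv
    exact hbv rfl
  · rw [hk, e1, card_top, Subgroup.card_bot, one_mul] at hcard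
    exact hcard

variable {G : Type*} [Group G] [Finite G] {p : ℕ} [hp : Fact p.Prime]

theorem hInv : Inv (MonoidHom.id G) (V p G) :=
  ⟨V_comm, fun g v hv => V_normal.conj_mem v hv g⟩

/-- the module -/
abbrev W (p : ℕ) [Fact p.Prime] (G : Type*) [Group G] [Finite G] : Type _ := Md (MonoidHom.id G) (V p G) hInv

/-- the group acting -/
abbrev Xg (p : ℕ) [Fact p.Prime] (G : Type*) [Group G] [Finite G] : Type _ := G ⧸ kerF G (W p G)

/-- the projection -/
abbrev pp (p : ℕ) [Fact p.Prime] (G : Type*) [Group G] [Finite G] : G →* Xg p G := pr G (W p G)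

theorem fx_iff {Y : Subgroup G} {v : W p G} : v ∈ fx (W p G) Y ↔ v.val ∈ V p G ⊓ Subgroup.centralizer (Y : Set G) := by
  rw [mem_fx, Subgroup.mem_inf, Subgroup.mem_centralizer_iff]
  constructor
  · intro h
    exact ⟨v.val_mem, fun y hy => (Md.smul_eq_iff y v).1 (h y hy)⟩
  · intro h y hy
    exact (Md.smul_eq_iff y v).2 (h.2 y hy)

theorem card_fx (Y : Subgroup G) : Nat.card (fx (W p G) Y) = Nat.card (V p G ⊓ Subgroup.centralizer (Y : Set G) : Subgroup G) :=
  Nat.card_congr ⟨fun v => ⟨v.1.val, fx_iff.1 v.2⟩, fun v => ⟨Md.mk _ hInv (Subgroup.mem_inf.1 v.2).1, fx_iff.2 v.2⟩,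
    fun _ => rfl, fun _ => rfl⟩

theorem card_W : Nat.card (W p G) = Nat.card (V p G) := rfl

theorem ker_pp : (pp p G).ker = Subgroup.centralizer (V p G : Set G) := by
  ext g
  rw [MonoidHom.mem_ker, pr_eq_one, Subgroup.mem_centralizer_iff]
  constructor
  · intro h v hv
    exact ((Md.smul_eq_iff g (Md.mk _ hInv hv)).1 (h _)).symm
  · intro h v
    exact (Md.smul_eq_iff g v).2 (h _ v.val_mem).symm

theorem W_pow (v : W p G) : p • v = 0 := by
  apply Md.val_inj
  rw [Md.val_nsmul]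
  exact V_pow v.val_mem

theorem mm_map (Y : Subgroup G) : mm (W p G) (Y.map (pp p G)) * Nat.card (Y ⊓ Subgroup.centralizer (V p G : Set G) : Subgroup G) =
    Nat.card Y * Nat.card (V p G ⊓ Subgroup.centralizer (Y : Set G) : Subgroup G) := by
  rw [mm, fx_map, card_fx, ← card_map_mul (pp p G) Y, ker_pp]
  ring

/-- the offender inequality for the abelian subgroups of largest order -/
theorem LA_off {P A Y V₀ : Subgroup G} (hA : LA P A) (hV : Ab V₀) (hVP : V₀ ≤ P) (hY : Y ≤ A) :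
    Nat.card Y * Nat.card (V₀ ⊓ Subgroup.centralizer (Y : Set G) : Subgroup G) ≤
      Nat.card A * Nat.card (V₀ ⊓ Subgroup.centralizer (A : Set G) : Subgroup G) := by
  set C := V₀ ⊓ Subgroup.centralizer (Y : Set G) with hC
  have h1 := Cfsg.Agent.H264.CD.card_mul_card_le Y C
  have hab : Ab (Y ⊔ C) := by
    have h2 : Y ⊔ C ≤ Subgroup.centralizer ((Y ⊔ C : Subgroup G) : Set G) := by
      have hYY : Y ≤ Subgroup.centralizer (Y : Set G) := fun y hy => by
        rw [Subgroup.mem_centralizer_iff]; exact fun z hz => hA.2.1 z (hY hz) y (hY hy)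
      have hCC : C ≤ Subgroup.centralizer (C : Set G) := fun y hy => by
        rw [Subgroup.mem_centralizer_iff]; exact fun z hz => hV z hz.1 y hy.1
      have hCY : C ≤ Subgroup.centralizer (Y : Set G) := inf_le_right
      rw [Cfsg.Agent.H264.CD.centralizer_sup]
      exact sup_le (le_inf hYY (Subgroup.le_centralizer_iff.1 hCY)) (le_inf hCY hCC)
    intro a ha b hb
    exact (Subgroup.mem_centralizer_iff.1 (h2 hb) a ha)
  have h3 := hA.2.2 _ (sup_le (hY.trans hA.1) (inf_le_left.trans hVP)) hab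
  have h4 : Y ⊓ C ≤ V₀ ⊓ Subgroup.centralizer (A : Set G) := by
    rintro x ⟨hx, hx'⟩
    refine Subgroup.mem_inf.2 ⟨hx'.1, ?_⟩
    rw [Subgroup.mem_centralizer_iff]
    exact fun a ha => hA.2.1 a ha x (hY hx)
  exact h1.trans (Nat.mul_le_mul h3 (Subgroup.card_le_of_le h4))

theorem mm_le {P A : Subgroup G} (hA : LA P A) (hVP : V p G ≤ P) {B : Subgroup (Xg p G)} (hB : B ≤ A.map (pp p G)) :
    mm (W p G) B ≤ mm (W p G) (A.map (pp p G)) := by
  set Y := A ⊓ B.comap (pp p G) with hY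
  have hYB : Y.map (pp p G) = B := by
    apply le_antisymm
    · rintro _ ⟨y, hy, rfl⟩
      exact hy.2
    · intro b hb
      obtain ⟨a, ha, rfl⟩ := hB hb
      exact ⟨a, ⟨ha, hb⟩, rfl⟩
  have hYC : Y ⊓ Subgroup.centralizer (V p G : Set G) = A ⊓ Subgroup.centralizer (V p G : Set G) := by
    rw [← ker_pp]
    apply le_antisymm (inf_le_inf_right _ inf_le_left)
    rintro x ⟨hx, hx'⟩
    refine ⟨⟨hx, ?_⟩, hx'⟩
    show pp p G x ∈ B
    rw [(MonoidHom.mem_ker).1 hx']; exact one_mem _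
  have h1 := mm_map (p := p) Y
  have h2 := mm_map (p := p) A
  have h3 := LA_off hA (V_comm (p := p)) hVP (inf_le_left : Y ≤ A)
  rw [← h1, ← h2, hYC, hYB] at h3
  exact Nat.le_of_mul_le_mul_right h3 Nat.card_pos

section

variable {S : Sylow p G} {M : Subgroup G} (m : Min p S M)

/-- the Sylow subgroup of the quotient -/
noncomputable def TT (S : Sylow p G) : Sylow p (Xg p G) := S.mapSurjective (f := pp p G) pr_surj

theorem coe_TT : (TT S : Subgroup (Xg p G)) = (S : Subgroup G).map (pp p G) := rfl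

include m

theorem comap_M : (M.map (pp p G)).comap (pp p G) = M := by
  rw [Subgroup.comap_map_eq, ker_pp]
  exact sup_eq_left.2 m.CM

theorem M_ne : M.map (pp p G) ≠ ⊤ := by
  intro h
  apply m.Mne
  rw [← comap_M m, h, Subgroup.comap_top]

theorem le_of_TT {H : Subgroup (Xg p G)} (h : (TT S : Subgroup (Xg p G)) ≤ H) : H ≤ M.map (pp p G) ∨ H = ⊤ := by
  by_cases h1 : H.comap (pp p G) = ⊤
  · right
    rw [eq_top_iff]
    intro x _
    obtain ⟨x, rfl⟩ := pr_surj x
    have : x ∈ H.comap (pp p G) := by rw [h1]; trivial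
    exact this
  · left
    have h2 : (S : Subgroup G) ≤ H.comap (pp p G) := by
      rw [← Subgroup.map_le_iff_le_comap]; exact h
    have h3 := m.max _ h2 h1
    intro x hx
    obtain ⟨x, rfl⟩ := pr_surj x
    exact ⟨x, h3 hx, rfl⟩

theorem coatom_M : IsCoatom (M.map (pp p G)) := by
  refine ⟨M_ne m, fun K hK => ?_⟩
  refine (le_of_TT m ?_).resolve_left fun h => hK.not_ge h
  exact (Subgroup.map_mono m.SM).trans hK.le

theorem TT_not_normal : ¬ (TT S : Subgroup (Xg p G)).Normal := by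
  intro h
  have h1 : ((TT S : Subgroup (Xg p G)).comap (pp p G)).Normal := h.comap _
  rw [coe_TT, Subgroup.comap_map_eq, ker_pp] at h1
  rcases m.sup_or_inf _ h1 with h2 | h2
  · apply m.CS_ne
    rw [← h2]
    apply le_antisymm
    · exact sup_le (le_sup_right.trans le_sup_left) le_sup_right
    · exact sup_le (sup_le le_sup_right le_sup_left) le_sup_right
  · exact m.SQ ((le_inf le_rfl le_sup_left).trans h2)

theorem pmin : IsPMinimal p (Xg p G) := by
  intro T'
  obtain ⟨x, hx⟩ := MulAction.exists_smul_eq (Xg p G) (TT S) T'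
  have hT' : (T' : Subgroup (Xg p G)) = cj x (TT S : Subgroup (Xg p G)) := by rw [← hx, coe_smul]
  constructor
  · intro h
    apply TT_not_normal m
    have h1 : (TT S : Subgroup (Xg p G)) = cj x⁻¹ (T' : Subgroup (Xg p G)) := by rw [hT', cj_inv_cj]
    have h2 : x⁻¹ ∈ Subgroup.normalizer ((T' : Subgroup (Xg p G)) : Set (Xg p G)) := by
      rw [Subgroup.normalizer_eq_top_iff.2 h]; trivial
    rw [h1, cj_eq_iff_mem_normalizer.2 h2]
    exact h
  · refine ⟨cj x (M.map (pp p G)), ⟨coatom_conj (coatom_M m) x, ?_⟩, ?_⟩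
    · rw [hT']
      exact cj_mono x (Subgroup.map_mono m.SM)
    · rintro N ⟨hN, hTN⟩
      have h1 := coatom_conj hN x⁻¹
      have h2 : (TT S : Subgroup (Xg p G)) ≤ cj x⁻¹ N := by
        have := cj_mono x⁻¹ hTN
        rwa [hT', cj_inv_cj] at this
      have h3 := (le_of_TT m h2).resolve_right h1.1
      have h4 : cj x⁻¹ N = M.map (pp p G) := by
        by_contra hne
        exact M_ne m (h1.2 _ (lt_of_le_of_ne h3 hne))
      rw [← h4, cj_cj_inv]

theorem mx_eq (hX : IsPMinimal p (Xg p G)) : mx hX (TT S) = M.map (pp p G) :=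
  (eq_mx hX (coatom_M m) (Subgroup.map_mono m.SM)).symm

theorem core (N : Subgroup (Xg p G)) (hN : N.Normal) (hNp : IsPGroup p N) : N = ⊥ := by
  have h1 : (N.comap (pp p G)).Normal := hN.comap _
  have hNT : N ≤ (TT S : Subgroup (Xg p G)) :=
    (Cfsg.Agent.Lib.Cores.le_pCore hN hNp).trans (Cfsg.Agent.Lib.Cores.pCore_le_sylow (TT S))
  rcases m.sup_or_inf _ h1 with h2 | h2
  · exfalso
    apply m.CS_ne
    have h3 : N.comap (pp p G) ≤ Subgroup.centralizer (V p G : Set G) ⊔ S := by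
      have h4 := Subgroup.comap_mono (f := pp p G) hNT
      rw [coe_TT, Subgroup.comap_map_eq, ker_pp, sup_comm] at h4
      exact h4
    rw [eq_top_iff, ← h2]
    exact sup_le h3 le_sup_right
  · rw [eq_bot_iff]
    intro n hn
    obtain ⟨s, hs, rfl⟩ := hNT hn
    rw [Subgroup.mem_bot]
    have h3 : s ∈ (pp p G).ker := by
      rw [ker_pp]; exact QC (h2 ⟨hs, hn⟩)
    exact h3

theorem exists_A : ∃ A, LA (S : Subgroup G) A ∧ ¬ A ≤ pCore p G := by
  by_contra hcon
  push Not at hcon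
  exact m.J_not_le (sSup_le fun A hA => hcon A hA)

theorem exists_out' : ∃ (hX : IsPMinimal p (Xg p G)) (𝒟 : Set (Subgroup (Xg p G))) (r : ℕ) (A L : Fin r → Subgroup (Xg p G))
    (z : Fin r → Xg p G), Out p (W p G) (mx hX) 𝒟 (TT S) r A L z := by
  have hX := pmin m
  obtain ⟨A, hA, hAQ⟩ := exists_A m
  have hVS : V p G ≤ S := V_le.trans QS
  have hAc : ∀ a ∈ A.map (pp p G), ∀ b ∈ A.map (pp p G), a * b = b * a := by
    rintro _ ⟨a, ha, rfl⟩ _ ⟨b, hb, rfl⟩
    rw [← map_mul, ← map_mul, hA.2.1 a ha b hb]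
  have hAp : IsPGroup p (A.map (pp p G)) := (S.isPGroup'.to_le hA.1).map _
  have hA1 : A.map (pp p G) ≠ ⊥ := by
    intro h
    apply hAQ
    rw [Subgroup.map_eq_bot_iff, ker_pp] at h
    exact (le_inf hA.1 h).trans m.CS_inf
  obtain ⟨B, hB, hB1, hoff⟩ := exists_EA W_pow pr_faithful hAc hAp hA1 (mm_le hA hVS bot_le)
  have hvec := Cfsg.Agent.H263.FF.Coprime.exists_vec m.p2 hX (core m) hB hB1 W_pow pr_faithful hoff (TT S)
  obtain ⟨𝒟, h⟩ := exists_hyp hX W_pow pr_faithful (core m) ⟨TT S, hvec⟩ hB hB1 hoff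
  obtain ⟨r, A, L, z, o⟩ := exists_out h m.p2 (TT S)
  exact ⟨hX, 𝒟, r, A, L, z, o⟩

/-- **`G / C_G(V)` is `SL₂(q)` on its natural module** -/
theorem r1 : R1 (W p G) ((S : Subgroup G).map (pp p G)) (M.map (pp p G)) := by
  obtain ⟨hX, 𝒟, r, A, L, z, o⟩ := exists_out' m
  have hVS : V p G ≤ S := V_le.trans QS
  have hmax : ∀ H : Subgroup (Xg p G), (TT S : Subgroup (Xg p G)) ≤ H → H ≤ mx hX (TT S) ∨ H = ⊤ :=
    fun H hH => max_mx hX (TT S) H hH
  -- the vectors of the lines lie in `Z(J(S))`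
  have h1 : ∀ i, ∀ v ∈ ln (W p G) A z i, v.val ∈ Zs (J (S : Subgroup G)) := by
    intro i v hv
    apply mem_ZJ
    intro B hB
    have h2 := off_trivial W_pow m.p2 o (B := B.map (pp p G)) (Subgroup.map_mono hB.1) (by
      rintro _ ⟨a, ha, rfl⟩ _ ⟨b, hb, rfl⟩
      rw [← map_mul, ← map_mul, hB.2.1 a ha b hb]) (fun C hC => mm_le hB hVS hC)
    apply hB.mem (hVS v.val_mem)
    intro b hb
    exact (Md.smul_eq_iff b v).1 (h2 _ ⟨b, hb, rfl⟩ i v hv)
  -- so `Jt(S)` lies in the preimage of `E`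
  have h2 : Jt (S : Subgroup G) ≤ (⨆ i, L i).comap (pp p G) := by
    intro x hx
    have hx' := mem_Jt.1 hx
    refine mem_E W_pow m.p2 pr_faithful o hmax (core m) (t := pp p G x) ⟨x, hx'.1, rfl⟩ ?_
    intro i v hv
    have h3 := hx'.2 _ (h1 i v hv)
    exact (Md.smul_eq_iff x v).2 h3.symm
  have hE := normal_E o hmax
  have hEn : ((⨆ i, L i).comap (pp p G)).Normal := hE.comap _
  have hsup := (m.sup_or_inf _ hEn).resolve_right (fun h => m.J_not_le ((le_inf Fun.J_le (J_le_Jt.trans h2)).trans h))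
  have hQ : pCore p G ≤ (⨆ i, L i).comap (pp p G) := by
    intro q hq
    have : q ∈ (pp p G).ker := by rw [ker_pp]; exact QC hq
    rw [Subgroup.mem_comap, (MonoidHom.mem_ker).1 this]; exact one_mem _
  have htop : (⨆ i, L i).comap (pp p G) = ⊤ := by
    by_contra hne
    have h3 := m.nrm _ hEn hne hQ h2
    apply m.Mne
    rw [eq_top_iff, ← hsup]
    exact sup_le h3 m.SM
  have hEt : (⨆ i, L i) = ⊤ := by
    rw [eq_top_iff]
    intro x _
    obtain ⟨x, rfl⟩ := pr_surj x
    have : x ∈ (⨆ i, L i).comap (pp p G) := by rw [htop]; trivial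
    exact this
  have h3 := rank_one W_pow m.p2 pr_faithful o hmax (mx_ne_top hX (TT S)) hEt
  rw [mx_eq m hX] at h3
  exact h3

end

end Cfsg.Agent.H215.Off
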