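import Cfsg.Agent.H215.Glob

/-!
# The case `X = ⟨L_i⟩`: `X ≅ SL₂(F)`
-/

set_option autoImplicit false
set_option linter.unusedSectionVars false
set_option linter.unusedVariables false

namespace Cfsg.Agent.H215.RankOne

open Cfsg.Agent.H263.FF.Basic Cfsg.Agent.H263.FF.Setup Cfsg.Agent.H263.FF.Odd Cfsg.Agent.H263.FF.OddNat
open Cfsg.Agent.H215.Line Cfsg.Agent.H215.Timm Cfsg.Agent.H215.Glob

/-- the geometry of `SL₂(q)` on the natural module -/
structure R1 {X : Type*} [Group X] (V : Type*) [AddCommGroup V] [DistribMulAction X V] (T M : Subgroup X) : Prop where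
  cent : ∀ t ∈ T, t ≠ 1 → ∀ v : V, t • v = v → v ∈ fx V T
  card : Nat.card T * Nat.card (fx V T) = Nat.card V
  sup : ∀ g, g ∉ M → fx V T ⊔ fx V (cj g T) = ⊤
  inf : ∀ g, g ∉ M → fx V T ⊓ fx V (cj g T) ≤ fx V (⊤ : Subgroup X)
  cov : ∀ g₁, g₁ ∉ M → ∀ x, x ∉ M → ∃ t ∈ T, ∃ m ∈ M, x = t * g₁ * m
  free : ∀ g₁, g₁ ∉ M → ∀ t ∈ T, g₁⁻¹ * t * g₁ ∈ M → t = 1

variable {p : ℕ} [hp : Fact p.Prime]
variable {X : Type*} [Group X] [Finite X] {V : Type*} [AddCommGroup V] [Finite V] [DistribMulAction X V]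
variable {pt : Sylow p X → Subgroup X} {𝒟 : Set (Subgroup X)}
variable {T : Sylow p X} {r : ℕ} {A L : Fin r → Subgroup X} {z : Fin r → X}

theorem rank_one (h2 : ∀ v : V, p • v = 0) (hp2 : p ≠ 2) (hf : ∀ x : X, (∀ v : V, x • v = v) → x = 1)
    (o : Out p V pt 𝒟 T r A L z)
    (hmax : ∀ H : Subgroup X, (T : Subgroup X) ≤ H → H ≤ pt T ∨ H = ⊤) (hpt : pt T ≠ ⊤)
    (hE : (⨆ i, L i) = ⊤) : R1 V (T : Subgroup X) (pt T) := by
  classical
  have hz1 : ∀ (x : X) i, x * z i * x⁻¹ = z i := fun x i => comm_z o (by rw [hE]; trivial) i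
  have hr : ∀ i j : Fin r, i = j := by
    intro i j
    obtain ⟨t, -, -, -, h1⟩ := o.trans i j
    rw [hz1] at h1
    exact inj_z h2 hp2 o h1
  set i₀ : Fin r := ⟨0, o.pos⟩ with hi₀
  have hL : L i₀ = ⊤ := by
    rw [← hE]
    apply le_antisymm (le_iSup L i₀)
    exact iSup_le fun i => by rw [hr i i₀]
  have hmL : ∀ x : X, x ∈ L i₀ := fun x => by rw [hL]; trivial
  obtain ⟨F, hF, hFt, hcard, ρ, e, hn, hl⟩ := o.nat i₀
  -- matrices
  let m : X → Matrix (Fin 2) (Fin 2) F := fun x => (ρ ⟨x, hmL x⟩).1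
  have hmul : ∀ x y, m (x * y) = m x * m y := by
    intro x y
    have : (⟨x * y, hmL (x * y)⟩ : L i₀) = ⟨x, hmL x⟩ * ⟨y, hmL y⟩ := rfl
    show (ρ ⟨x * y, _⟩).1 = _
    rw [this, map_mul]; rfl
  have hdet : ∀ x, m x 0 0 * m x 1 1 - m x 0 1 * m x 1 0 = 1 := by
    intro x
    have := (ρ ⟨x, hmL x⟩).2
    rwa [Matrix.det_fin_two] at this
  have h00 : ∀ x y, m (x * y) 0 0 = m x 0 0 * m y 0 0 + m x 0 1 * m y 1 0 := fun x y => by
    rw [hmul, Matrix.mul_apply, Fin.sum_univ_two]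
  have h01 : ∀ x y, m (x * y) 0 1 = m x 0 0 * m y 0 1 + m x 0 1 * m y 1 1 := fun x y => by
    rw [hmul, Matrix.mul_apply, Fin.sum_univ_two]
  have h10 : ∀ x y, m (x * y) 1 0 = m x 1 0 * m y 0 0 + m x 1 1 * m y 1 0 := fun x y => by
    rw [hmul, Matrix.mul_apply, Fin.sum_univ_two]
  have h11 : ∀ x y, m (x * y) 1 1 = m x 1 0 * m y 0 1 + m x 1 1 * m y 1 1 := fun x y => by
    rw [hmul, Matrix.mul_apply, Fin.sum_univ_two]
  have hone : m 1 = 1 := by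
    have : (⟨1, hmL 1⟩ : L i₀) = 1 := rfl
    show (ρ ⟨1, _⟩).1 = _
    rw [this, map_one]; rfl
  have hinj : ∀ x y, m x = m y → x = y := by
    intro x y hxy
    have h1 : ρ ⟨x, hmL x⟩ = ρ ⟨y, hmL y⟩ := Subtype.ext hxy
    exact congrArg (fun y : L i₀ => (y : X)) (ρ.injective h1)
  have hinv : ∀ x, m x⁻¹ 1 0 = - m x 1 0 ∧ m x⁻¹ 0 0 = m x 1 1 ∧ m x⁻¹ 1 1 = m x 0 0 ∧ m x⁻¹ 0 1 = - m x 0 1 := by
    intro x
    have h1 : (⟨x⁻¹, hmL x⁻¹⟩ : L i₀) = (⟨x, hmL x⟩)⁻¹ := rfl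
    have h3 : m x⁻¹ = ((ρ ⟨x, hmL x⟩)⁻¹ : Matrix.SpecialLinearGroup (Fin 2) F).1 := by
      show (ρ ⟨x⁻¹, _⟩).1 = _
      rw [h1, map_inv]
    rw [h3, Matrix.SpecialLinearGroup.coe_inv, Matrix.adjugate_fin_two]
    exact ⟨rfl, rfl, rfl, rfl⟩
  have hex : ∀ U : Matrix.SpecialLinearGroup (Fin 2) F, ∃ x, m x = U.1 := by
    intro U
    refine ⟨ρ.symm U, ?_⟩
    show (ρ ⟨(ρ.symm U : L i₀), _⟩).1 = U.1
    rw [Subtype.coe_eta, MulEquiv.apply_symm_apply]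
  -- the module
  have hNi : ∀ x : X, ∀ v ∈ (ng V (z i₀)), x • v ∈ (ng V (z i₀)) := fun x v hv => hn.inv x (hmL x) v hv
  have hact0 : ∀ (x : X) (w w' : (ng V (z i₀))), (w' : V) = x • (w : V) → e w' 0 = m x 0 0 * e w 0 + m x 0 1 * e w 1 := by
    intro x w w' h
    rw [hn.act ⟨x, hmL x⟩ w w' h, Matrix.mulVec, dotProduct, Fin.sum_univ_two]
  have hact1 : ∀ (x : X) (w w' : (ng V (z i₀))), (w' : V) = x • (w : V) → e w' 1 = m x 1 0 * e w 0 + m x 1 1 * e w 1 := by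
    intro x w w' h
    rw [hn.act ⟨x, hmL x⟩ w w' h, Matrix.mulVec, dotProduct, Fin.sum_univ_two]
  have hfixT : fx V (L i₀) = fx V (⊤ : Subgroup X) := by rw [hL]
  have hdec : ∀ v : V, ∃ u ∈ fx V (⊤ : Subgroup X), ∃ n ∈ (ng V (z i₀)), u + n = v := by
    intro v
    rw [← hfixT]
    exact (o.isZ i₀).decomp h2 hp2 v
  have hlmem : ∀ w : (ng V (z i₀)), (w : V) ∈ ln V A z i₀ ↔ e w 1 = 0 := by
    intro w
    rw [← hl]
    exact ⟨fun h => h.1, fun h => ⟨h, w.2⟩⟩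
  -- `T` is upper unitriangular
  have hTfix : ∀ t ∈ T, cj t (A i₀) = A i₀ := by
    intro t ht
    obtain ⟨j, h1, -, -⟩ := o.cjT t ht i₀
    rw [h1, hr j i₀]
  have hTl : ∀ t ∈ T, ∀ v ∈ ln V A z i₀, t • v ∈ ln V A z i₀ := fun t ht v hv =>
    smul_ln h2 hp2 o (hTfix t ht) (hz1 t i₀) hv
  obtain ⟨v₀, hv₀, hv₀0⟩ := exists_ne h2 hp2 o i₀
  obtain ⟨v₁, hv₁, hv₁0, hv₁'⟩ := exists_fixed (K := ⊥) (H := ln V A z i₀) T.isPGroup' h2
    (fun t _ v hv => by rw [AddSubgroup.mem_bot] at hv ⊢; rw [hv, smul_zero]) hTl bot_le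
    (fun h => hv₀0 ((AddSubgroup.mem_bot).1 (h hv₀)))
  have hv₁t : ∀ t ∈ T, t • v₁ = v₁ := fun t ht => by
    have := hv₁' t ht
    rwa [AddSubgroup.mem_bot, sub_eq_zero] at this
  rw [AddSubgroup.mem_bot] at hv₁0
  have hcoord : ∀ w : (ng V (z i₀)), e w 0 = 0 → e w 1 = 0 → w = 0 := by
    intro w h1 h3
    apply e.injective
    rw [map_zero]
    ext k
    fin_cases k
    · exact h1
    · exact h3
  have hv₁1 : e ⟨v₁, hv₁.2⟩ 1 = 0 := (hlmem ⟨v₁, hv₁.2⟩).1 hv₁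
  have hv₁2 : e ⟨v₁, hv₁.2⟩ 0 ≠ 0 := by
    intro h
    exact hv₁0 (congrArg Subtype.val (hcoord _ h hv₁1))
  have hT : ∀ t ∈ T, m t 0 0 = 1 ∧ m t 1 0 = 0 ∧ m t 1 1 = 1 := by
    intro t ht
    have h1 := hact0 t ⟨v₁, hv₁.2⟩ ⟨v₁, hv₁.2⟩ (hv₁t t ht).symm
    have h3 := hact1 t ⟨v₁, hv₁.2⟩ ⟨v₁, hv₁.2⟩ (hv₁t t ht).symm
    rw [hv₁1, mul_zero, add_zero] at h1 h3
    have h4 : m t 0 0 = 1 := by
      have : (m t 0 0 - 1) * e ⟨v₁, hv₁.2⟩ 0 = 0 := by linear_combination -h1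
      rcases mul_eq_zero.1 this with h5 | h5
      · exact sub_eq_zero.1 h5
      · exact absurd h5 hv₁2
    have h5 : m t 1 0 = 0 := by
      rcases mul_eq_zero.1 h3.symm with h5 | h5
      · exact h5
      · exact absurd h5 hv₁2
    refine ⟨h4, h5, ?_⟩
    have h6 := hdet t
    rw [h4, h5] at h6
    simpa using h6
  have hTcent : ∀ v ∈ ln V A z i₀, v ∈ fx V (T : Subgroup X) := by
    intro v hv t ht
    obtain ⟨h1, h3, h4⟩ := hT t ht
    have hev := (hlmem ⟨v, hv.2⟩).1 hv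
    have h5 : (⟨t • v, hNi t v hv.2⟩ : (ng V (z i₀))) = ⟨v, hv.2⟩ := by
      apply e.injective
      ext k
      fin_cases k
      · show e ⟨t • v, hNi t v hv.2⟩ 0 = e ⟨v, hv.2⟩ 0
        rw [hact0 t ⟨v, hv.2⟩ ⟨t • v, hNi t v hv.2⟩ rfl, h1, hev]; ring
      · show e ⟨t • v, hNi t v hv.2⟩ 1 = e ⟨v, hv.2⟩ 1
        rw [hact1 t ⟨v, hv.2⟩ ⟨t • v, hNi t v hv.2⟩ rfl, h3, h4]; ring
    exact congrArg Subtype.val h5
  have hTeq : ∀ t ∈ T, m t 0 1 = 0 → t = 1 := by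
    intro t ht h
    obtain ⟨h1, h3, h4⟩ := hT t ht
    apply hinj
    rw [hone]
    ext x y
    fin_cases x <;> fin_cases y
    · exact h1
    · exact h
    · exact h3
    · exact h4
  -- `|T| = |F|`
  have hcardT : Nat.card T = Fintype.card F := by
    apply le_antisymm
    · rw [← Nat.card_eq_fintype_card]
      refine Nat.card_le_card_of_injective (fun t : T => m (t : X) 0 1) ?_
      intro s t hst
      obtain ⟨h1, h3, h4⟩ := hT s s.2
      obtain ⟨h5, h6, h7⟩ := hT t t.2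
      apply Subtype.ext
      apply hinj
      ext x y
      fin_cases x <;> fin_cases y
      · exact h1.trans h5.symm
      · exact hst
      · exact h3.trans h6.symm
      · exact h4.trans h7.symm
    · rw [hcard]
      exact Nat.card_le_card_of_injective (Subgroup.inclusion (o.le i₀)) (Subgroup.inclusion_injective _)
  have hTex : ∀ b : F, ∃ t ∈ T, m t 0 1 = b := by
    intro b
    obtain ⟨a, ha, hab⟩ := exists_A h2 hp2 o hn hl hcard b
    exact ⟨a, o.le i₀ ha, hab⟩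
  -- vectors fixed by one element
  have hfix1 : ∀ t ∈ T, t ≠ 1 → ∀ n ∈ (ng V (z i₀)), t • n = n → n ∈ ln V A z i₀ := by
    intro t ht ht1 n hn' htn
    obtain ⟨h1, h3, h4⟩ := hT t ht
    rw [← show ((⟨n, hn'⟩ : (ng V (z i₀))) : V) = n from rfl, hlmem]
    have h5 := hact0 t ⟨n, hn'⟩ ⟨n, hn'⟩ htn.symm
    rw [h1, one_mul] at h5
    have h6 : m t 0 1 * e ⟨n, hn'⟩ 1 = 0 := by linear_combination -h5
    rcases mul_eq_zero.1 h6 with h7 | h7
    · exact absurd (hTeq t ht h7) ht1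
    · exact h7
  have hTne : ∃ t ∈ T, t ≠ 1 := by
    obtain ⟨t, ht, h⟩ := hTex 1
    refine ⟨t, ht, ?_⟩
    rintro rfl
    rw [hone] at h
    simp at h
  -- the stabilizer of the line
  let B : Subgroup X :=
    { carrier := {x | m x 1 0 = 0}
      one_mem' := by show m 1 1 0 = 0; rw [hone]; simp
      mul_mem' := by
        intro a b ha hb
        show m (a * b) 1 0 = 0
        rw [h10, (ha : m a 1 0 = 0), (hb : m b 1 0 = 0)]; ring
      inv_mem' := by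
        intro a ha
        show m a⁻¹ 1 0 = 0
        rw [(hinv a).1, (ha : m a 1 0 = 0), neg_zero] }
  have hTB : (T : Subgroup X) ≤ B := fun t ht => (hT t ht).2.1
  have hBne : B ≠ ⊤ := by
    intro h
    obtain ⟨x, hx⟩ := hex ⟨!![0, -1; 1, 0], by rw [Matrix.det_fin_two_of]; ring⟩
    have h1 : x ∈ B := by rw [h]; trivial
    have h3 : m x 1 0 = 0 := h1
    rw [hx] at h3
    simp at h3
  have hBpt : B ≤ pt T := (hmax B hTB).resolve_right hBne
  have hcov : ∀ g₁, g₁ ∉ B → ∀ x, x ∉ B → ∃ t ∈ T, ∃ b ∈ B, x = t * g₁ * b := by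
    intro g₁ hg₁ x hx
    have hg₁' : m g₁ 1 0 ≠ 0 := hg₁
    have hx' : m x 1 0 ≠ 0 := hx
    obtain ⟨t, ht, htb⟩ := hTex (m x 0 0 / m x 1 0 - m g₁ 0 0 / m g₁ 1 0)
    refine ⟨t, ht, (t * g₁)⁻¹ * x, ?_, by group⟩
    show m ((t * g₁)⁻¹ * x) 1 0 = 0
    obtain ⟨h1, h3, h4⟩ := hT t ht
    rw [h10, (hinv _).1, (hinv _).2.2.1, h10, h00, h1, h3, h4, htb]
    field_simp
    ring
  have hptB : pt T = B := by
    apply le_antisymm _ hBpt
    intro g hg
    by_contra hgB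
    apply hpt
    rw [eq_top_iff]
    intro x _
    by_cases hx : x ∈ B
    · exact hBpt hx
    · obtain ⟨t, ht, b, hb, rfl⟩ := hcov g hgB x hx
      exact mul_mem (mul_mem (hBpt (hTB ht)) hg) (hBpt hb)
  refine ⟨?_, ?_, ?_, ?_, ?_, ?_⟩
  · intro t ht ht1 v hv
    obtain ⟨u, hu, n, hn', rfl⟩ := hdec v
    have hun : t • n = n := by
      rw [smul_add, hu t trivial] at hv
      exact add_left_cancel hv
    exact add_mem (fx_anti le_top hu) (hTcent _ (hfix1 t ht ht1 n hn' hun))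
  · -- cardinalities
    have hU0 : fx V (⊤ : Subgroup X) ⊓ (ng V (z i₀)) = ⊥ := by
      rw [eq_bot_iff]
      rintro v ⟨h1, h3⟩
      rw [AddSubgroup.mem_bot]
      exact (o.isZ i₀).inf h2 hp2 (by rw [hfixT]; exact h1) h3
    have hUN : fx V (⊤ : Subgroup X) ⊔ (ng V (z i₀)) = ⊤ := by
      rw [eq_top_iff]
      intro v _
      obtain ⟨u, hu, n, hn', rfl⟩ := hdec v
      exact AddSubgroup.add_mem_sup hu hn'
    have hfxT : fx V (T : Subgroup X) = fx V (⊤ : Subgroup X) ⊔ ln V A z i₀ := by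
      apply le_antisymm
      · intro v hv
        obtain ⟨u, hu, n, hn', rfl⟩ := hdec v
        obtain ⟨t, ht, ht1⟩ := hTne
        have hun : t • n = n := by
          have := hv t ht
          rw [smul_add, hu t trivial] at this
          exact add_left_cancel this
        exact AddSubgroup.add_mem_sup hu (hfix1 t ht ht1 n hn' hun)
      · exact sup_le (fx_anti le_top) hTcent
    have hU1 : fx V (⊤ : Subgroup X) ⊓ ln V A z i₀ = ⊥ := by
      rw [eq_bot_iff, ← hU0]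
      exact inf_le_inf_left _ inf_le_right
    have c1 := card_sup_inf (fx V (⊤ : Subgroup X)) (ng V (z i₀))
    rw [hU0, hUN, AddSubgroup.card_bot, mul_one, card_top] at c1
    have c2 := card_sup_inf (fx V (⊤ : Subgroup X)) (ln V A z i₀)
    rw [hU1, AddSubgroup.card_bot, mul_one, ← hfxT] at c2
    have c3 : Nat.card (ng V (z i₀)) = Fintype.card F ^ 2 := by
      rw [Nat.card_congr e.toEquiv, Nat.card_eq_fintype_card, Fintype.card_fun, Fintype.card_fin]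
    have c4 : Nat.card (ln V A z i₀) = Fintype.card F := by
      rw [← Nat.card_eq_fintype_card]
      refine Nat.card_congr ⟨fun v => e ⟨v.1, v.2.2⟩ 0, fun x => ⟨(e.symm ![x, 0] : (ng V (z i₀))), ?_⟩, ?_, ?_⟩
      · rw [hlmem, AddEquiv.apply_symm_apply]; rfl
      · intro v
        apply Subtype.ext
        show ((e.symm ![e ⟨v.1, v.2.2⟩ 0, 0] : (ng V (z i₀))) : V) = v
        have h1 : (e.symm ![e ⟨v.1, v.2.2⟩ 0, 0] : (ng V (z i₀))) = ⟨v.1, v.2.2⟩ := by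
          apply e.injective
          rw [AddEquiv.apply_symm_apply]
          ext k
          fin_cases k
          · rfl
          · exact ((hlmem ⟨v.1, v.2.2⟩).1 v.2).symm
        rw [h1]
      · intro x
        show e ⟨((e.symm ![x, 0] : (ng V (z i₀))) : V), _⟩ 0 = x
        rw [Subtype.coe_eta, AddEquiv.apply_symm_apply]; rfl
    rw [hcardT, c2, c4, c1, c3]; ring
  · intro g hg
    rw [hptB] at hg
    have hg' : m g 1 0 ≠ 0 := hg
    rw [eq_top_iff]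
    intro v _
    obtain ⟨u, hu, n, hn', rfl⟩ := hdec v
    -- `n = l₁ + g l₂`
    set w₂ : (ng V (z i₀)) := e.symm ![e ⟨n, hn'⟩ 1 / m g 1 0, 0] with hw₂
    have hw₂l : (w₂ : V) ∈ ln V A z i₀ := by rw [hlmem, hw₂, AddEquiv.apply_symm_apply]; rfl
    have hgw₂ : g • (w₂ : V) ∈ (ng V (z i₀)) := hNi g _ w₂.2
    have hw0 : e w₂ 0 = e ⟨n, hn'⟩ 1 / m g 1 0 := by rw [hw₂, AddEquiv.apply_symm_apply]; rfl
    have hw1 : e w₂ 1 = 0 := by rw [hw₂, AddEquiv.apply_symm_apply]; rfl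
    have h3 := hact1 g w₂ ⟨_, hgw₂⟩ rfl
    rw [hw0, hw1, mul_zero, add_zero, mul_div_cancel₀ _ hg'] at h3
    have h4 : n - g • (w₂ : V) ∈ ln V A z i₀ := by
      have h5 : (((⟨n, hn'⟩ - ⟨_, hgw₂⟩ : (ng V (z i₀)))) : V) = n - g • (w₂ : V) := rfl
      rw [← h5, hlmem, map_sub, Pi.sub_apply, h3, sub_self]
    have h5 : u + n = (u + (n - g • (w₂ : V))) + g • (w₂ : V) := by abel
    rw [h5]
    refine AddSubgroup.add_mem_sup (add_mem (fx_anti le_top hu) (hTcent _ h4)) ?_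
    exact smul_mem_fx_cj (hTcent _ hw₂l)
  · rintro g hg v ⟨hv, hv'⟩
    rw [hptB] at hg
    have hg' : m g 1 0 ≠ 0 := hg
    have hv'' := mem_fx_cj.1 hv'
    obtain ⟨u, hu, n, hn', rfl⟩ := hdec v
    obtain ⟨t, ht, ht1⟩ := hTne
    have hln : n ∈ ln V A z i₀ := by
      apply hfix1 t ht ht1 n hn'
      have := hv t ht
      rw [smul_add, hu t trivial] at this
      exact add_left_cancel this
    have hln' : g⁻¹ • n ∈ ln V A z i₀ := by
      apply hfix1 t ht ht1 _ (hNi _ _ hn')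
      have := hv'' t ht
      rw [smul_add g⁻¹, hu g⁻¹ trivial, smul_add, hu t trivial] at this
      exact add_left_cancel this
    have h1 := (hlmem ⟨n, hn'⟩).1 hln
    have h3 := (hlmem ⟨g⁻¹ • n, hNi _ _ hn'⟩).1 hln'
    rw [hact1 g⁻¹ ⟨n, hn'⟩ ⟨g⁻¹ • n, hNi _ _ hn'⟩ rfl, h1, (hinv g).1, mul_zero, add_zero] at h3
    have h4 : e ⟨n, hn'⟩ 0 = 0 := by
      rcases mul_eq_zero.1 h3 with h5 | h5
      · exact absurd (neg_eq_zero.1 h5) hg'
      · exact h5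
    have h5 : n = 0 := congrArg Subtype.val (hcoord ⟨n, hn'⟩ h4 h1)
    rw [h5, add_zero]; exact hu
  · rw [hptB]; exact hcov
  · intro g hg t ht h
    rw [hptB] at hg h
    have hg' : m g 1 0 ≠ 0 := hg
    have h1 : m (g⁻¹ * t * g) 1 0 = 0 := h
    obtain ⟨h3, h4, h5⟩ := hT t ht
    rw [h10, h10, h11, (hinv g).1, (hinv g).2.2.1, h3, h4, h5] at h1
    apply hTeq t ht
    have h6 : m t 0 1 * (m g 1 0 * m g 1 0) = 0 := by linear_combination -h1
    rcases mul_eq_zero.1 h6 with h7 | h7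
    · exact h7
    · exact absurd (mul_self_eq_zero.1 h7) hg'

end Cfsg.Agent.H215.RankOne
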