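import Cfsg.Agent.H215.Fun
import Cfsg.Agent.H215.Act
import Cfsg.Agent.H215.RankOne
import Cfsg.Agent.H39.FTMain

/-!
# The minimal failure: first reductions
-/

set_option autoImplicit false
set_option linter.unusedSectionVars false
set_option linter.unusedVariables false

open Cfsg

namespace Cfsg.Agent.H215.Setup

open Cfsg.Agent.H215.Fun Cfsg.Agent.H215.Act

variable {G : Type*} [Group G] [Finite G] {p : ℕ} [hp : Fact p.Prime]

/-- The elements of order dividing `p` of the centre of `Q`. -/
def Om (p : ℕ) (Q : Subgroup G) : Subgroup G where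
  carrier := {x | x ∈ Zs Q ∧ x ^ p = 1}
  one_mem' := ⟨one_mem _, one_pow p⟩
  mul_mem' := by
    rintro a b ⟨ha, ha'⟩ ⟨hb, hb'⟩
    refine ⟨mul_mem ha hb, ?_⟩
    have hc : Commute a b := (mem_Zs.1 hb).2 a (mem_Zs.1 ha).1
    rw [hc.mul_pow, ha', hb', one_mul]
  inv_mem' := by
    rintro a ⟨ha, ha'⟩
    exact ⟨inv_mem ha, by rw [inv_pow, ha', inv_one]⟩

theorem mem_Om {Q : Subgroup G} {x : G} : x ∈ Om p Q ↔ x ∈ Zs Q ∧ x ^ p = 1 := Iff.rfl

theorem normal_of {W : Subgroup G → Subgroup G} {N : Subgroup G} (hN : N.Normal)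
    (hW : Subgroup.normalizer (N : Set G) ≤ Subgroup.normalizer (W N : Set G)) : (W N).Normal := by
  rw [← Subgroup.normalizer_eq_top_iff, eq_top_iff]
  refine le_trans ?_ hW
  rw [Subgroup.normalizer_eq_top_iff.2 hN]

theorem normal_Om {Q : Subgroup G} (hQ : Q.Normal) : (Om p Q).Normal := by
  have h1 : (Zs Q).Normal := normal_of hQ normalizer_le_Zs
  constructor
  rintro x ⟨hx, hx'⟩ g
  refine ⟨h1.conj_mem x hx g, ?_⟩
  rw [conj_pow, hx', mul_one, mul_inv_cancel]

theorem normal_of_central {N : Subgroup G} (h : N ≤ Subgroup.center G) : N.Normal := by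
  constructor
  intro n hn g
  have h1 := Subgroup.mem_center_iff.1 (h hn) g
  rw [h1, mul_inv_cancel_right]
  exact hn

/-- an averaging argument -/
theorem stepA (S : Sylow p G) {Z : Subgroup G} (hZn : Z.Normal) (hZ : Ab Z) (hZS : Z ≤ S)
    (h : ∀ x ∈ Z, x ^ p = 1 → (∀ s ∈ S, s * x = x * s) → x ∈ Subgroup.center G) :
    ∀ x ∈ Z, (∀ s ∈ S, s * x = x * s) → x ∈ Subgroup.center G := by
  classical
  have key : ∀ n : ℕ, ∀ x ∈ Z, orderOf x = n → (∀ s ∈ S, s * x = x * s) → x ∈ Subgroup.center G := by
    intro n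
    induction n using Nat.strong_induction_on with
    | _ n ih =>
    intro x hx hn hxS
    by_cases hx1 : x = 1
    · rw [hx1]; exact one_mem _
    -- the order of `x`
    obtain ⟨k, hk⟩ := (IsPGroup.iff_orderOf.1 S.isPGroup') ⟨x, hZS hx⟩
    have hk' : orderOf x = p ^ k := by rw [← hk, ← Subgroup.orderOf_coe]
    have hk0 : k ≠ 0 := by
      rintro rfl
      rw [pow_zero, orderOf_eq_one_iff] at hk'
      exact hx1 hk'
    have hpd : p ∣ orderOf x := by rw [hk']; exact dvd_pow_self p hk0
    have hlt : orderOf (x ^ p) < n := by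
      rw [← hn, orderOf_pow_of_dvd hp.out.ne_zero hpd]
      exact Nat.div_lt_self (orderOf_pos x) hp.out.one_lt
    have hxp : x ^ p ∈ Subgroup.center G := by
      refine ih _ hlt (x ^ p) (pow_mem hx p) rfl fun s hs => ?_
      exact ((show Commute s x from hxS s hs).pow_right p)
    -- the product
    let _ : CommGroup ↥Z :=
      { (inferInstance : Group ↥Z) with
        mul_comm := fun a b => Subtype.ext (hZ a a.2 b b.2) }
    have _ : Fintype (G ⧸ (S : Subgroup G)) := Fintype.ofFinite _
    let φ : G → ↥Z := fun g => ⟨g * x * g⁻¹, hZn.conj_mem x hx g⟩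
    let f : G ⧸ (S : Subgroup G) → ↥Z := fun c => Quotient.liftOn' c φ (by
      intro a b hab
      rw [QuotientGroup.leftRel_apply] at hab
      apply Subtype.ext
      show a * x * a⁻¹ = b * x * b⁻¹
      have h1 := hxS _ hab
      have h2 : b * x = a * x * a⁻¹ * b := by
        calc b * x = a * ((a⁻¹ * b) * x) := by group
          _ = a * (x * (a⁻¹ * b)) := by rw [h1]
          _ = _ := by group
      rw [h2]; group)
    let y : ↥Z := ∏ c, f c
    have hyc : (y : G) ∈ Subgroup.center G := by
      rw [Subgroup.mem_center_iff]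
      intro g
      have h1 : MulAut.conjNormal g y = y := by
        show MulAut.conjNormal g (∏ c, f c) = ∏ c, f c
        rw [map_prod, ← Equiv.prod_comp (MulAction.toPerm g) f]
        refine Finset.prod_congr rfl fun c _ => ?_
        induction c using QuotientGroup.induction_on with
        | H a =>
          apply Subtype.ext
          rw [MulAut.conjNormal_apply]
          show g * (a * x * a⁻¹) * g⁻¹ = (g * a) * x * (g * a)⁻¹
          group
      have h2 := congrArg Subtype.val h1
      rw [MulAut.conjNormal_apply, mul_inv_eq_iff_eq_mul] at h2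
      exact h2
    set n' := Nat.card (G ⧸ (S : Subgroup G)) with hn'
    have hyp : (y : G) ^ p = (x ^ p) ^ n' := by
      have h1 : y ^ p = (⟨x ^ p, pow_mem hx p⟩ : ↥Z) ^ n' := by
        show (∏ c, f c) ^ p = _
        rw [← Finset.prod_pow, Finset.prod_congr rfl (g := fun _ => (⟨x ^ p, pow_mem hx p⟩ : ↥Z)),
          Finset.prod_const, Finset.card_univ, hn', Nat.card_eq_fintype_card]
        intro c _
        induction c using QuotientGroup.induction_on with
        | H a =>
          apply Subtype.ext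
          show (a * x * a⁻¹) ^ p = x ^ p
          rw [conj_pow, Subgroup.mem_center_iff.1 hxp a, mul_inv_cancel_right]
      exact congrArg Subtype.val h1
    have hcop : Nat.Coprime n' (orderOf x) := by
      rw [hk']
      refine Nat.Coprime.pow_right k ?_
      rw [Nat.coprime_comm, Nat.Prime.coprime_iff_not_dvd hp.out]
      rw [hn', ← Subgroup.index_eq_card]
      exact S.not_dvd_index
    obtain ⟨m, hm⟩ := exists_pow_eq_self_of_coprime hcop
    -- the correction
    have hxy : Commute x ((y : G) ^ m)⁻¹ :=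
      ((show Commute x (y : G) from Subgroup.mem_center_iff.1 hyc x).pow_right m).inv_right
    have hw : (x * ((y : G) ^ m)⁻¹) ^ p = 1 := by
      rw [hxy.mul_pow, inv_pow, ← pow_mul, mul_comm m p, pow_mul, hyp, ← pow_mul, ← pow_mul]
      have h1 : x ^ (p * (n' * m)) = x ^ p := by
        calc x ^ (p * (n' * m)) = ((x ^ n') ^ m) ^ p := by rw [← pow_mul, ← pow_mul]; congr 1; ring
          _ = x ^ p := by rw [hm]
      rw [h1, mul_inv_cancel]
    have hwc : x * ((y : G) ^ m)⁻¹ ∈ Subgroup.center G := by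
      refine h _ (mul_mem hx (inv_mem (pow_mem y.2 m))) hw fun s hs => ?_
      have h1 : Commute s ((y : G) ^ m)⁻¹ :=
        ((show Commute s (y : G) from Subgroup.mem_center_iff.1 hyc s).pow_right m).inv_right
      exact (show Commute s x from hxS s hs).mul_right h1
    have h2 := mul_mem hwc (pow_mem hyc m)
    rwa [inv_mul_cancel_right] at h2
  intro x hx hxS
  exact key _ x hx rfl hxS

/-- The data of a minimal failure. -/
structure Min (p : ℕ) [Fact p.Prime] (S : Sylow p G) (M : Subgroup G) : Prop where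
  p2 : p ≠ 2
  con : Subgroup.centralizer (pCore p G : Set G) ≤ pCore p G
  Mne : M ≠ ⊤
  max : ∀ H : Subgroup G, (S : Subgroup G) ≤ H → H ≠ ⊤ → H ≤ M
  bad : ¬ ⁅pCore p G, (⊤ : Subgroup G)⁆ ≤ ⁅pCore p G, M⁆
  Zn : ¬ (Zs (S : Subgroup G)).Normal
  Kn : ¬ (K (S : Subgroup G)).Normal
  nrm : ∀ N : Subgroup G, N.Normal → N ≠ ⊤ → pCore p G ≤ N → Jt (S : Subgroup G) ≤ N → N ≤ M

namespace Min

variable {S : Sylow p G} {M : Subgroup G} (m : Min p S M)
include m

theorem S_ne : (S : Subgroup G) ≠ ⊤ := by
  intro h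
  apply m.Zn
  apply normal_of _ normalizer_le_Zs
  rw [h]; infer_instance

theorem SM : (S : Subgroup G) ≤ M := m.max _ le_rfl m.S_ne

omit m in
theorem QS : pCore p G ≤ S := Cfsg.Agent.Lib.Cores.pCore_le_sylow S

omit m in
theorem Qn : (pCore p G).Normal := Cfsg.Agent.Lib.Cores.pCore_normal p

theorem QM : pCore p G ≤ M := QS.trans m.SM

theorem SQ : ¬ (S : Subgroup G) ≤ pCore p G := by
  intro h
  have h1 : (S : Subgroup G) = pCore p G := le_antisymm h QS
  apply m.Zn
  rw [h1]
  exact normal_of Qn normalizer_le_Zs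

theorem exists_notMem : ∃ g, g ∉ M := by
  by_contra hcon
  push Not at hcon
  exact m.Mne (by rw [eq_top_iff]; exact fun x _ => hcon x)

/-- a normal subgroup covers `G/S` or meets `S` in `O_p(G)` -/
theorem sup_or_inf (N : Subgroup G) (hN : N.Normal) : N ⊔ S = ⊤ ∨ (S : Subgroup G) ⊓ N ≤ pCore p G := by
  by_cases h : N ⊔ S = ⊤
  · exact Or.inl h
  right
  have hNM : N ≤ M := le_sup_left.trans (m.max _ le_sup_right h)
  have h1 := Cfsg.Agent.H39.sylow_le_normalizer_inf S N
  have h2 : Subgroup.normalizer (((S : Subgroup G) ⊓ N : Subgroup G) : Set G) = ⊤ := by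
    by_contra h3
    have h4 := m.max _ h1 h3
    apply m.Mne
    rw [eq_top_iff]
    intro x _
    obtain ⟨n, hn, l, hl, rfl⟩ := Cfsg.Agent.H39.exists_mul_normalizer S N x
    exact mul_mem (h4 hn) (hNM hl)
  exact Cfsg.Agent.Lib.Cores.le_pCore (Subgroup.normalizer_eq_top_iff.1 h2) (S.isPGroup'.to_le inf_le_left)

theorem ZS_le : Zs (S : Subgroup G) ≤ Zs (pCore p G) := by
  intro x hx
  rw [mem_Zs] at hx ⊢
  refine ⟨m.con ?_, fun y hy => hx.2 y (QS hy)⟩
  rw [Subgroup.mem_centralizer_iff]
  exact fun y hy => hx.2 y (QS hy)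

/-- the module -/
def V (p : ℕ) (G : Type*) [Group G] : Subgroup G := Om p (pCore p G)

omit [Finite G] m in
theorem V_le_Z : V p G ≤ Zs (pCore p G) := fun _ h => h.1

omit [Finite G] m in
theorem V_le : V p G ≤ pCore p G := V_le_Z.trans Zs_le

omit m in
theorem V_normal : (V p G).Normal := normal_Om Qn

omit [Finite G] m in
theorem V_comm : ∀ a ∈ V p G, ∀ b ∈ V p G, a * b = b * a := fun a ha b hb =>
  ((mem_Zs.1 (V_le_Z hb)).2 a (V_le ha))

omit [Finite G] m in
theorem V_Q {q v : G} (hq : q ∈ pCore p G) (hv : v ∈ V p G) : q * v = v * q :=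
  (mem_Zs.1 (V_le_Z hv)).2 q hq

omit [Finite G] m in
theorem V_pow {v : G} (hv : v ∈ V p G) : v ^ p = 1 := hv.2

theorem CS_ne : Subgroup.centralizer (V p G : Set G) ⊔ S ≠ ⊤ := by
  intro h
  apply m.Zn
  apply normal_of_central
  have hZn : (Zs (pCore p G)).Normal := normal_of Qn normalizer_le_Zs
  have h1 := stepA S hZn (fun a ha b hb => (mem_Zs.1 hb).2 a (Zs_le ha)) (Zs_le.trans QS) (by
    intro x hx hxp hxS
    have hxV : x ∈ V p G := ⟨hx, hxp⟩
    have h2 : Subgroup.centralizer (V p G : Set G) ⊔ S ≤ Subgroup.centralizer ({x} : Set G) := by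
      apply sup_le
      · intro c hc
        rw [Subgroup.mem_centralizer_singleton_iff]
        exact (Subgroup.mem_centralizer_iff.1 hc x hxV).symm
      · intro s hs
        rw [Subgroup.mem_centralizer_singleton_iff]
        exact hxS s hs
    rw [Subgroup.mem_center_iff]
    intro g
    have h3 : g ∈ Subgroup.centralizer ({x} : Set G) := h2 (by rw [h]; trivial)
    exact Subgroup.mem_centralizer_singleton_iff.1 h3)
  intro x hx
  exact h1 x (m.ZS_le hx) fun s hs => (mem_Zs.1 hx).2 s hs

theorem CM : Subgroup.centralizer (V p G : Set G) ≤ M := le_sup_left.trans (m.max _ le_sup_right m.CS_ne)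

omit m in
theorem QC : pCore p G ≤ Subgroup.centralizer (V p G : Set G) := by
  intro q hq
  rw [Subgroup.mem_centralizer_iff]
  exact fun v hv => (V_Q hq hv).symm

theorem CS_inf : (S : Subgroup G) ⊓ Subgroup.centralizer (V p G : Set G) ≤ pCore p G := by
  have _ := V_normal (p := p) (G := G)
  exact (m.sup_or_inf _ inferInstance).resolve_left m.CS_ne

/-- `J(S) ≰ O_p(G)` -/
theorem J_not_le : ¬ J (S : Subgroup G) ≤ pCore p G := by
  intro h
  have hJ : J (pCore p G) = J (S : Subgroup G) := J_eq_of_le QS h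
  have hJn : (J (S : Subgroup G)).Normal := by rw [← hJ]; exact normal_of Qn normalizer_le_J
  have hZJn : (Zs (J (S : Subgroup G))).Normal := normal_of hJn normalizer_le_Zs
  have hCn : (Subgroup.centralizer (Zs (J (S : Subgroup G)) : Set G)).Normal := inferInstance
  rcases m.sup_or_inf _ hCn with h1 | h1
  · apply m.Zn
    apply normal_of_central
    intro x hx
    have h2 : Subgroup.centralizer (Zs (J (S : Subgroup G)) : Set G) ⊔ S ≤ Subgroup.centralizer ({x} : Set G) := by
      apply sup_le
      · intro c hc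
        rw [Subgroup.mem_centralizer_singleton_iff]
        exact (Subgroup.mem_centralizer_iff.1 hc x (Zs_le_ZJ hx)).symm
      · intro s hs
        rw [Subgroup.mem_centralizer_singleton_iff]
        exact (mem_Zs.1 hx).2 s hs
    rw [Subgroup.mem_center_iff]
    intro g
    have h3 : g ∈ Subgroup.centralizer ({x} : Set G) := h2 (by rw [h1]; trivial)
    exact Subgroup.mem_centralizer_singleton_iff.1 h3
  · have h2 : Jt (S : Subgroup G) ≤ pCore p G := h1
    have h3 : Jt (S : Subgroup G) = pCore p G ⊓ Subgroup.centralizer (Zs (J (S : Subgroup G)) : Set G) :=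
      le_antisymm (le_inf h2 inf_le_right) (inf_le_inf_right _ QS)
    have hQn := Qn (p := p) (G := G)
    have hJtn : (Jt (S : Subgroup G)).Normal := by rw [h3]; infer_instance
    apply m.Kn
    rw [K]
    by_cases h4 : D (Jt (S : Subgroup G)) = ⊥
    · rw [if_pos h4]; exact hJn
    · rw [if_neg h4]; exact normal_of hJtn normalizer_le_D

end Min

end Cfsg.Agent.H215.Setup
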